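/-
The isometry group of the cubic form of type `E₆` is generated by root elements.
-/
import Cfsg.Agent.Geom.E6a

set_option autoImplicit false
set_option linter.unusedSectionVars false

namespace CF.Geom.E6

open Cfsg.Lie Matrix Finset

variable {F : Type*} [Field F]

/-- The partial derivatives of the cubic form. -/
def Q (a : I27) (x : I27 → F) : F := ∑ n, ep n * (x (p1 a n) * x (p2 a n))

/-- Their polarization. -/
def R (a : I27) (x y : I27 → F) : F :=
  ∑ n, ep n * (x (p1 a n) * y (p2 a n) + x (p2 a n) * y (p1 a n))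

/-- The part of `T (x + y)` which is quadratic in `x`. -/
def B (x y : I27 → F) : F := ∑ a, y a * Q a x

/-- The trilinear form. -/
def P (x y z : I27 → F) : F := ∑ a, z a * R a x y

theorem T_add (x y : I27 → F) : cubicT (x + y) = cubicT x + B x y + B y x + cubicT y := by
  simp [cubicT, mat3, det_fin_three, trace, mul_apply, B, Q, Fintype.sum_prod_type,
    Fin.sum_univ_three, Fin.sum_univ_five, p1, p2, ep]
  ring

theorem T_eq (x : I27 → F) : cubicT x = ∑ a : I27, ∑ n, (if (if n < 2 then a.2.1 else a.1) = 0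
    then ep n * x a else 0) * (x (p1 a n) * x (p2 a n)) := by
  simp [cubicT, mat3, det_fin_three, trace, mul_apply, Fintype.sum_prod_type,
    Fin.sum_univ_three, Fin.sum_univ_five, p1, p2, ep]
  ring

theorem T_smul (s : F) (x : I27 → F) : cubicT (s • x) = s ^ 3 * cubicT x := by
  simp only [T_eq, mul_sum, Pi.smul_apply, smul_eq_mul]
  refine sum_congr rfl fun a _ => sum_congr rfl fun n _ => ?_
  split_ifs <;> ring

theorem B_smul (s t : F) (x y : I27 → F) : B (s • x) (t • y) = s ^ 2 * t * B x y := by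
  simp only [B, Q, mul_sum, Pi.smul_apply, smul_eq_mul]
  exact sum_congr rfl fun a _ => sum_congr rfl fun n _ => by ring

theorem P_smul (s t u : F) (x y z : I27 → F) : P (s • x) (t • y) (u • z) = s * t * u * P x y z := by
  simp only [P, R, mul_sum, Pi.smul_apply, smul_eq_mul]
  exact sum_congr rfl fun a _ => sum_congr rfl fun n _ => by ring

theorem P_eq (x y z : I27 → F) : P x y z = B (x + y) z - B x z - B y z := by
  simp only [P, B, R, Q, mul_sum, ← sum_sub_distrib, Pi.add_apply]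
  exact sum_congr rfl fun a _ => sum_congr rfl fun n _ => by ring

theorem B_single (x : I27 → F) (a : I27) : B x (Pi.single a 1) = Q a x := by
  simp [B, Pi.single_apply]

theorem P_single (x y : I27 → F) (a : I27) : P x y (Pi.single a 1) = R a x y := by
  simp [P, Pi.single_apply]

theorem ep_ne (n : Fin 5) : (ep n : F) ≠ 0 := by unfold ep; split_ifs <;> simp

theorem Tri.swap {a b c : I27} (h : Tri a b c) : Tri a c b := h.imp fun _ => Or.symm

theorem Tri.rot {a b c : I27} (h : Tri a b c) : Tri c a b := by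
  obtain ⟨n, ⟨rfl, rfl⟩ | ⟨rfl, rfl⟩⟩ := h
  exacts [(tri_p a n).2, (tri_p a n).1]

theorem col_iff {a b : I27} : Col a b ↔ ∃ c, Tri a b c :=
  ⟨fun ⟨n, h⟩ => h.elim (fun h => ⟨_, n, .inl ⟨h, rfl⟩⟩) fun h => ⟨_, n, .inr ⟨rfl, h⟩⟩,
    fun ⟨_, n, h⟩ => ⟨n, h.imp And.left And.right⟩⟩

theorem Tri.col {a b c : I27} (h : Tri a b c) : Col a b := col_iff.2 ⟨c, h⟩

theorem Col.symm {a b : I27} (h : Col a b) : Col b a :=
  let ⟨_, h⟩ := col_iff.1 h; h.rot.rot.swap.col

theorem R_tri {a b c : I27} (h : Tri a b c) :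
    ∃ e : F, e ≠ 0 ∧ ∀ v, R a (Pi.single b 1) v = e * v c := by
  obtain ⟨n, h⟩ := h
  refine ⟨_, ep_ne n, fun v => ?_⟩
  rw [R, sum_eq_single n (fun m _ hm => ?_) (by simp)]
  · rcases h with ⟨rfl, rfl⟩ | ⟨rfl, rfl⟩ <;> simp [(p_ne a n n).1, (p_ne a n n).1.symm]
  · have := (p_ne a m n).2 hm
    rcases h with ⟨rfl, rfl⟩ | ⟨rfl, rfl⟩ <;> simp [(p_ne a m n).1, (p_ne a n m).1.symm, this]

theorem R_eq_zero {b c : I27} (h : ¬Col b c) (a : I27) :
    R a (Pi.single b 1) (Pi.single c (1 : F)) = 0 := by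
  by_cases h1 : Col a b
  · obtain ⟨d, h1⟩ := col_iff.1 h1
    obtain ⟨e, -, h2⟩ := R_tri (F := F) h1
    rw [h2, Pi.single_eq_of_ne (by rintro rfl; exact h h1.rot.rot.col), mul_zero]
  · simp only [Col, not_exists, not_or] at h1
    simp [R, h1]

theorem Q_single (a b : I27) : Q a (Pi.single b (1 : F)) = 0 :=
  sum_eq_zero fun n _ => by
    by_cases h : p1 a n = b
    · subst h; simp [(p_ne a n n).1.symm]
    · simp [h]

theorem eq_single {v : I27 → F} (h : ∀ a, Q a v = 0) {m : I27} (hm : v m ≠ 0)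
    (h1 : ∀ k, k ≠ m → ¬Col m k → v k = 0) : v = v m • Pi.single m 1 := by
  ext k
  by_cases e : k = m
  · simp [e]
  rw [Pi.smul_apply, Pi.single_eq_of_ne e, smul_zero]
  by_cases e' : Col m k
  · obtain ⟨c, h2⟩ := col_iff.1 e'
    obtain ⟨n, h2⟩ := h2.rot
    have := h c
    rw [Q, sum_eq_single n (fun l _ hl => ?_) (by simp)] at this
    · rcases h2 with ⟨rfl, rfl⟩ | ⟨rfl, rfl⟩ <;> simpa [ep_ne, hm] using this
    · have := (p_ne c n l).2 hl.symm
      rw [h1 (p1 c l)]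
      · simp
      all_goals rcases h2 with ⟨rfl, rfl⟩ | ⟨rfl, rfl⟩
      exacts [this.1.symm, (p_ne ..).1, this.2.2.1, this.2.2.2]
  · exact h1 k e e'

/-- Monomial matrices. -/
def mono {R : Type*} [Zero R] (f : I27 → I27) (c : I27 → R) : Matrix I27 I27 R :=
  .of fun a b => if a = f b then c b else 0

theorem mono_mul {R : Type*} [Semiring R] (f g : I27 → I27) (c d : I27 → R) :
    mono f c * mono g d = mono (f ∘ g) fun b => c (g b) * d b := by
  ext a b; simp [mono, mul_apply]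

/-- The root operators. -/
def eF (F : Type*) [Field F] (r : ℕ) : Matrix I27 I27 F := mono (tg r) fun b => sg r b

theorem eF_mulVec (r : ℕ) (v : I27 → F) (a : I27) :
    (eF F r *ᵥ v) a = ∑ b, if a = tg r b then sg r b * v b else 0 := by
  simp [eF, mono, mulVec, dotProduct]

theorem T_root (r : Fin 72) (t : F) (v : I27 → F) : cubicT ((1 + t • eF F r) *ᵥ v) = cubicT v := by
  have h1 : ∀ a, (eF F r *ᵥ v) a ≠ 0 → ∃ b, sg r b ≠ 0 ∧ a = tg r b := fun a h => by
    obtain ⟨b, -, h⟩ := exists_ne_zero_of_sum_ne_zero (eF_mulVec r v a ▸ h)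
    exact ⟨b, fun e => h (by simp [e]), by_contra fun e => h (if_neg e)⟩
  have h2 : ∀ a n, (eF F r *ᵥ v) (p1 a n) * (eF F r *ᵥ v) (p2 a n) = 0 := fun a n => by
    by_contra h
    obtain ⟨b, hb, e⟩ := h1 _ (left_ne_zero_of_mul h)
    obtain ⟨c, hc, e'⟩ := h1 _ (right_ne_zero_of_mul h)
    exact ((root_spec r b hb).2 c hc).1 (e ▸ e' ▸ (tri_p a n).1.swap.col)
  have h3 : B v (eF F r *ᵥ v) = ∑ e : I27 × Fin 5, ((sg r e.1 * ep e.2 : ℤ) : F) *
      (({e.1, p1 (tg r e.1) e.2, p2 (tg r e.1) e.2} : Multiset I27).map v).prod := by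
    simp only [B, eF_mulVec, sum_mul, ite_mul, zero_mul]
    rw [sum_comm, Fintype.sum_prod_type (α₁ := I27) (α₂ := Fin 5)]
    refine sum_congr rfl fun b _ => ?_
    simp only [sum_ite_eq', mem_univ, if_true, Q, mul_sum]
    exact sum_congr rfl fun n _ => by simp; ring
  have h4 : B v (eF F r *ᵥ v) = 0 := by
    rw [h3]
    refine sum_ninvolution (par r) (fun e => ?_) (fun e h => ?_) (by simp) fun e => ?_ <;>
      by_cases h0 : sg r e.1 = 0
    · simp [par, h0]
    · rw [(par_spec r e h0).2.2.1, (par_spec r e h0).2.2.2]; simp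
    · simp [h0] at h
    · exact (par_spec r e h0).1
    · simp [par, h0]
    · exact (par_spec r e h0).2.1
  have h5 := B_smul 1 t v (eF F r *ᵥ v)
  have h6 := B_smul t 1 (eF F r *ᵥ v) v
  rw [one_smul] at h5 h6
  rw [add_mulVec, one_mulVec, smul_mulVec, T_add, T_smul, T_eq (eF F r *ᵥ v), h5, h6, h4]
  simp only [B, Q, h2, mul_zero, sum_const_zero, add_zero]

section

variable (hF : ∃ s : F, s ≠ 0 ∧ s ≠ 1) {g : GL I27 F} (hg : g ∈ E6univ F)
include hF hg

theorem B_map (x y : I27 → F) : B (g.1 *ᵥ x) (g.1 *ᵥ y) = B x y := by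
  obtain ⟨s, h0, h1⟩ := hF
  have h : ∀ v, cubicT (g.1 *ᵥ v) = cubicT v := hg
  have h2 := h (x + y)
  have h3 := h ((1 : F) • x + s • y)
  rw [mulVec_add, T_add, T_add, h, h] at h2 h3
  rw [mulVec_smul, mulVec_smul, B_smul, B_smul, B_smul, B_smul] at h3
  apply mul_left_cancel₀ (mul_ne_zero h0 (sub_ne_zero.2 h1))
  linear_combination s ^ 2 * h2 - h3

theorem P_map (x y z : I27 → F) : P (g.1 *ᵥ x) (g.1 *ᵥ y) (g.1 *ᵥ z) = P x y z := by
  rw [P_eq, P_eq, ← mulVec_add, B_map hF hg, B_map hF hg, B_map hF hg]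

theorem Q_map (a b : I27) : Q a (g.1 *ᵥ Pi.single b 1) = 0 := by
  obtain ⟨y, hy⟩ := (mulVec_surjective_iff_isUnit.2 g.isUnit) (Pi.single a 1)
  rw [← B_single, ← hy, B_map hF hg]
  simp [B, Q_single]

end

/-- `g` fixes the points of `L`. -/
def Fx (L : List I27) (g : GL I27 F) : Prop :=
  ∀ a ∈ L, ∃ c : F, c ≠ 0 ∧ g.1 *ᵥ Pi.single a 1 = c • Pi.single a 1

theorem excl (hF : ∃ s : F, s ≠ 0 ∧ s ≠ 1) {g : GL I27 F} (hg : g ∈ E6univ F) {L : List I27}
    (h : Fx L g) {x m v : I27} (hx : x ∈ L) (h1 : ¬Col x m) (h2 : Col x v) :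
    (g.1 *ᵥ Pi.single m 1) v = 0 := by
  obtain ⟨c, hc, e⟩ := h x hx
  obtain ⟨a, h2⟩ := col_iff.1 h2
  obtain ⟨y, hy⟩ := (mulVec_surjective_iff_isUnit.2 g.isUnit) (Pi.single a 1)
  obtain ⟨s, hs, h3⟩ := R_tri (F := F) h2.rot
  have := P_map hF hg (Pi.single x 1) (Pi.single m 1) y
  rw [hy, e, ← one_smul F (g.1 *ᵥ _), ← one_smul F (Pi.single a 1), P_smul, P_single, h3] at this
  simpa [P, R_eq_zero h1, hc, hs] using this

theorem root_step {g : GL I27 F} {L : List I27} (h : Fx L g) {r : Fin 72} {x : GL I27 F} {t : F}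
    (hx : x.1 = 1 + t • eF F r) (hL : ∀ a ∈ L, sg r a = 0) : Fx L (x * g) := fun a ha => by
  obtain ⟨c, hc, e⟩ := h a ha
  refine ⟨c, hc, ?_⟩
  rw [Units.val_mul, ← mulVec_mulVec, e, mulVec_smul, hx, add_mulVec, one_mulVec, smul_mulVec,
    show eF F r *ᵥ Pi.single a 1 = 0 by ext; simp [eF, mono, hL a ha], smul_zero, add_zero]

theorem root_apply {r : Fin 72} {a : I27} (ha : sg r a ≠ 0) (t : F) (v : I27 → F) {k : I27}
    (hk : ¬Col a k) : ((1 + t • eF F r) *ᵥ v) k =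
      v k + if k = tg r a then t * sg r a * v a else 0 := by
  rw [add_mulVec, one_mulVec, smul_mulVec, Pi.add_apply, Pi.smul_apply, eF_mulVec,
    sum_eq_single a (fun b _ hb => ?_) (by simp)]
  · simp [mul_assoc]
  · split_ifs with e
    · by_cases h : sg r b = 0
      · simp [h]
      · exact absurd (e ▸ (((root_spec r a ha).2 b h).2 hb).1) hk
    · rfl

theorem sg_sq {r : Fin 72} {a : I27} (ha : sg r a ≠ 0) : (sg r a : F) * sg r a = 1 := by
  rw [← Int.cast_mul, ← sq, (root_spec r a ha).1, Int.cast_one]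

theorem not_col_self : ∀ a, ¬Col a a := by decide +kernel

variable (hF : ∃ s : F, s ≠ 0 ∧ s ≠ 1) {X : Subgroup (GL I27 F)} (hle : X ≤ E6univ F)
  (hX : ∀ (r : Fin 72) (t : F), ∃ x ∈ X, x.1 = 1 + t • eF F r)
include hF hle hX

theorem good_self {L : List I27} {m : I27} (hm : m ∉ L)
    (h : ∀ g ∈ E6univ F, Fx (m :: L) g → g ∈ X) {g : GL I27 F} (hg : g ∈ E6univ F) (h1 : Fx L g)
    (h2 : (g.1 *ᵥ Pi.single m 1) m ≠ 0) : g ∈ X := by
  classical
  generalize e : (univ.filter fun k => k ≠ m ∧ ¬Col m k ∧ (g.1 *ᵥ Pi.single m 1) k ≠ 0) = S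
  induction S using Finset.strongInduction generalizing g with | _ S ih => ?_
  rcases S.eq_empty_or_nonempty with rfl | ⟨k, hk⟩
  · refine h g hg (List.forall_mem_cons.2 ⟨⟨_, h2, eq_single (Q_map hF hg · m) h2 ?_⟩, h1⟩)
    simpa [filter_eq_empty_iff] using e
  obtain ⟨k1, k2, k3⟩ := (mem_filter.1 (e ▸ hk)).2
  obtain ⟨r, rfl, hr⟩ := exists_root m k k1.symm k2
  obtain ⟨x, hx, e1⟩ := hX r (-(sg r m * (g.1 *ᵥ Pi.single m 1) (tg r m) / (g.1 *ᵥ Pi.single m 1) m))
  have h3 : ∀ k, ¬Col m k → ((x * g).1 *ᵥ Pi.single m 1) k = if k = tg r m then 0 else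
      (g.1 *ᵥ Pi.single m 1) k := fun k hk => by
    rw [Units.val_mul, ← mulVec_mulVec, e1, root_apply hr _ _ hk]
    split_ifs with e
    · rw [e]; field_simp; linear_combination -(g.1 *ᵥ Pi.single m 1) (tg r m) * sg_sq (F := F) hr
    · simp
  refine (X.mul_mem_cancel_left hx).1 (ih _ ?_ (mul_mem (hle hx) hg) (root_step h1 e1 fun a ha => ?_)
    (by rwa [h3 _ (not_col_self m), if_neg k1.symm]) rfl)
  · refine (ssubset_iff_of_subset fun l hl => ?_).2 ⟨_, hk, fun h =>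
      (mem_filter.1 h).2.2.2 (by rw [h3 _ k2, if_pos rfl])⟩
    obtain ⟨l1, l2, l3⟩ := (mem_filter.1 hl).2
    rw [h3 _ l2] at l3
    exact e ▸ mem_filter.2 ⟨mem_univ _, l1, l2, fun e => l3 (by simp [e])⟩
  · by_contra h4
    have := ((root_spec r m hr).2 a h4).2 (by rintro rfl; exact hm ha)
    exact k3 (excl hF hg h1 ha (mt Col.symm this.2.1) this.2.2.symm)

omit hF in
theorem good_mv {L : List I27} {m v k : I27} (hv : Mv L v k) (h : ∀ g ∈ E6univ F, Fx L g →
    (g.1 *ᵥ Pi.single m 1) k ≠ 0 → g ∈ X) (g : GL I27 F) (hg : g ∈ E6univ F) (h1 : Fx L g)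
    (h2 : (g.1 *ᵥ Pi.single m 1) v ≠ 0) : g ∈ X := by
  by_cases h3 : (g.1 *ᵥ Pi.single m 1) k = 0
  · obtain ⟨r, rfl, hr⟩ := exists_root v k hv.1 hv.2.1
    obtain ⟨x, hx, e1⟩ := hX r 1
    refine (X.mul_mem_cancel_left hx).1 (h _ (mul_mem (hle hx) hg) (root_step h1 e1 fun a ha => ?_) ?_)
    · by_contra h4
      have := ((root_spec r v hr).2 a h4).2 (hv.2.2 a ha).1
      exact (hv.2.2 a ha).2.elim this.2.1 fun h => h this.2.2
    · rw [Units.val_mul, ← mulVec_mulVec, e1, root_apply hr _ _ hv.2.1, h3, if_pos rfl, zero_add, one_mul]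
      exact mul_ne_zero (left_ne_zero_of_mul_eq_one (sg_sq hr)) h2
  · exact h g hg h1 h3

theorem red {L : List I27} (hL : OK L) (h : ∀ g ∈ E6univ F, Fx L g → g ∈ X) : E6univ F ≤ X := by
  induction L with
  | nil => exact fun g hg => h g hg fun _ h => nomatch h
  | cons m L ih =>
    refine ih hL.1 fun g hg h1 => ?_
    by_cases hm : m ∈ L
    · exact h g hg (List.forall_mem_cons.2 ⟨h1 m hm, h1⟩)
    have h2 := fun g => good_self hF hle hX hm h (g := g)
    have key : ∀ {x k : I27}, x ∈ L → Tri k x m → ∃ c : F, c ≠ 0 ∧ P (c • Pi.single x 1)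
        (g.1 *ᵥ Pi.single m 1) (g.1 *ᵥ Pi.single k 1) ≠ 0 := fun {x k} hx ht => by
      obtain ⟨c, hc, e⟩ := h1 x hx
      obtain ⟨s, hs, h3⟩ := R_tri (F := F) ht
      exact ⟨c, hc, by rw [← e, P_map hF hg, P_single, h3]; simpa⟩
    rcases hL.2 with ⟨x, hx, k, hk, ht⟩ | ⟨-, h3⟩
    · obtain ⟨c, -, h3⟩ := key hx ht
      obtain ⟨d, -, e⟩ := h1 k hk
      obtain ⟨s, hs, h4⟩ := R_tri (F := F) ht
      rw [e, ← one_smul F (g.1 *ᵥ _), P_smul, P_single, h4] at h3
      exact h2 g hg h1 (right_ne_zero_of_mul (right_ne_zero_of_mul h3))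
    obtain ⟨v, hv, h4⟩ : ∃ v, (g.1 *ᵥ Pi.single m 1) v ≠ 0 ∧
        (fr 0 ∈ L → Col (fr 0) m → Col (fr 0) v) := by
      by_cases h4 : fr 0 ∈ L ∧ Col (fr 0) m
      · obtain ⟨k, ht⟩ := col_iff.1 h4.2
        obtain ⟨c, -, h5⟩ := key h4.1 ht.rot
        rw [← one_smul F (g.1 *ᵥ Pi.single m 1), ← one_smul F (g.1 *ᵥ Pi.single k 1), P_smul] at h5
        obtain ⟨a, -, h5⟩ := exists_ne_zero_of_sum_ne_zero (right_ne_zero_of_mul h5)
        replace h5 := right_ne_zero_of_mul h5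
        by_cases h6 : Col a (fr 0)
        · obtain ⟨v, h6⟩ := col_iff.1 h6
          obtain ⟨s, -, h7⟩ := R_tri (F := F) h6
          exact ⟨v, right_ne_zero_of_mul (h7 _ ▸ h5), fun _ _ => h6.rot.rot.col⟩
        · simp only [Col, not_exists, not_or] at h6
          simp [R, h6] at h5
      · obtain ⟨v, hv⟩ := Function.ne_iff.1 (((mulVec_injective_iff_isUnit.2 g.isUnit).ne_iff'
          (mulVec_zero _)).2 (show Pi.single m (1 : F) ≠ 0 by simp))
        exact ⟨v, hv, fun a b => absurd ⟨a, b⟩ h4⟩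
    rcases h3 v ⟨h4, fun x hx h5 h6 => hv (excl hF hg h1 hx h5 h6)⟩ with rfl | h5 | ⟨k, h5, h6⟩
    · exact h2 g hg h1 hv
    · exact good_mv hle hX h5 h2 g hg h1 hv
    · exact good_mv hle hX h5 (good_mv hle hX h6 h2) g hg h1 hv

theorem le_of_tor (hD : ∀ c : Fin 6 → Fˣ, ∃ x ∈ X, ∃ d : I27 → Fˣ,
    x.1 = diagonal (fun a => (d a : F)) ∧ ∀ j, d (fr j) = c j) : E6univ F ≤ X := by
  obtain ⟨L, hL, h⟩ := exists_ok
  refine red hF hle hX hL fun g hg h1 => ?_
  choose c hc e using fun a => h1 a (h a)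
  obtain ⟨x, hx, d, e1, e2⟩ := hD fun j => .mk0 _ (hc (fr j))
  have e3 : ∀ a, x.1 *ᵥ Pi.single a 1 = (d a : F) • Pi.single a 1 := fun a => by
    ext b; by_cases h : b = a <;> simp [e1, h]
  have : ∀ L, OK L → ∀ a ∈ L, c a = d a := fun L hL => by
    induction L with
    | nil => simp
    | cons m L ih =>
      refine List.forall_mem_cons.2 ⟨?_, ih hL.1⟩
      rcases hL.2 with ⟨y, hy, k, hk, ht⟩ | ⟨⟨j, rfl⟩, -⟩
      · have h2 := (P_map hF hg (Pi.single y 1) (Pi.single m 1) (Pi.single k 1)).trans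
          (P_map hF (hle hx) ..).symm
        obtain ⟨s, hs, h4⟩ := R_tri (F := F) ht
        simpa only [e, e3, P_smul, P_single, h4, ih hL.1 _ hy, ih hL.1 _ hk, Pi.single_eq_same,
          mul_one, mul_left_inj' hs, mul_left_inj' (d k).ne_zero, mul_right_inj' (d y).ne_zero] using h2
      · simp [e2]
  convert hx
  refine Units.ext (Matrix.ext fun a b => ?_)
  have h2 := e b
  rw [this L hL b (h b), ← e3] at h2
  simpa using congrFun h2 a

end CF.Geom.E6
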