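/-
Table checks for the 27-dimensional representation of the Lie algebra of type `E₆`.
-/
import Cfsg.Agent.Geom.E6a
import Cfsg.Agent.Chev.DataE6

set_option autoImplicit false
set_option linter.unusedSectionVars false

namespace CF.Geom.E6

open Cfsg.Lie Matrix Finset CF.Chev

/-- Columnwise check of a bracket of monomial matrices. -/
def chk (a : I27) (x : ℤ) (b : I27) (y : ℤ) (c : I27) (z : ℤ) : Prop :=
  (x = 0 ∧ y = 0 ∧ z = 0) ∨ (x = y ∧ z = 0 ∧ a = b) ∨ (x = z ∧ y = 0 ∧ a = c) ∨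
    (-y = z ∧ x = 0 ∧ b = c)

instance (a : I27) (x : ℤ) (b : I27) (y : ℤ) (c : I27) (z : ℤ) : Decidable (chk a x b y c z) := by
  unfold chk; infer_instance

theorem br_spec : ∀ r s : Fin 72, s.1 = tabE6.neg r ∨ ∀ b, chk (tg r (tg s b))
    (sg r (tg s b) * sg s b) (tg s (tg r b)) (sg s (tg r b) * sg r b) (tg (tabE6.tgt r s) b)
    (if tabE6.code r s = 0 then 0 else tabE6.nv r s * sg (tabE6.tgt r s) b) := by
  decide +kernel

/-- The weights of the basis vectors. -/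
def wt (a : I27) (i : Fin 6) : ℤ := sg (tabE6.sim i) (tg (tabE6.neg (tabE6.sim i)) a) *
  sg (tabE6.neg (tabE6.sim i)) a - sg (tabE6.neg (tabE6.sim i)) (tg (tabE6.sim i) a) *
  sg (tabE6.sim i) a

theorem neg_spec : ∀ (r : Fin 72) b, sg r (tg r b) * sg r b = 0 ∧ (sg r b = 0 ∨
    tg r (tg (tabE6.neg r) (tg r b)) = tg r b) ∧ sg r (tg (tabE6.neg r) (tg r b)) *
      sg (tabE6.neg r) (tg r b) * sg r b = sg r b := by decide +kernel

theorem wt_spec : ∀ (i : Fin 6) b, chk (tg (tabE6.sim i) (tg (tabE6.neg (tabE6.sim i)) b))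
    (sg (tabE6.sim i) (tg (tabE6.neg (tabE6.sim i)) b) * sg (tabE6.neg (tabE6.sim i)) b)
    (tg (tabE6.neg (tabE6.sim i)) (tg (tabE6.sim i) b))
    (sg (tabE6.neg (tabE6.sim i)) (tg (tabE6.sim i) b) * sg (tabE6.sim i) b) b (wt b i) := by
  decide +kernel

/-- The inverse of the matrix of the weights of the free points. -/
def inv6 : Fin 6 → Fin 6 → ℤ := ![![0, 0, -1, 0, 0, 0], ![2, 1, -2, 0, 1, 1], ![1, 1, -2, 1, 0, 0],
  ![2, 1, -3, 1, 1, 1], ![2, 0, -2, 0, 1, 1], ![1, 0, -1, 0, 0, 1]]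

theorem inv6_spec : ∀ l j, ∑ i, inv6 i j * wt (fr l) i = if j = l then 1 else 0 := by
  decide +kernel

end CF.Geom.E6
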