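/-
The 27-dimensional representation of the Chevalley group of type `E₆`.
-/
import Cfsg.Agent.Geom.E6b
import Cfsg.Agent.Geom.E6t
import Cfsg.Agent.Chev.ClsSp

set_option autoImplicit false
set_option linter.unusedSectionVars false

namespace CF.Geom.E6

open Cfsg.Lie Matrix Finset CF.Chev

theorem mono_sub {f g h : I27 → I27} {c d e : I27 → ℤ}
    (H : ∀ b, chk (f b) (c b) (g b) (d b) (h b) (e b)) : mono f c - mono g d = mono h e := by
  ext a b
  rcases H b with ⟨h1, h2, h3⟩ | ⟨h1, h2, h3⟩ | ⟨h1, h2, h3⟩ | ⟨h1, h2, h3⟩ <;>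
    simp [mono, ← h1, h2, h3, apply_ite Neg.neg]

theorem add_iff {r s u : Fin chevE6.nroots} :
    cbE6.vec u = cbE6.vec s + cbE6.vec r ↔ tabE6.code r s ≠ 0 ∧ tabE6.tgt r s = u := by
  rw [← certE6.good.add_iff r.2 s.2 u.2, funext_iff]
  exact ⟨fun h i hi => h ⟨i, hi⟩, fun h i => h i i.2⟩

/-- The representation of the Lie algebra. -/
noncomputable def rep : MinRep cbE6 (Matrix I27 I27 ℤ) := LieRep.toMin
  { e r := mono (tg r) (sg r)
    br_root r s u h := by
      obtain ⟨h1, h2⟩ := add_iff.1 h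
      rw [mono_mul, mono_mul, show cbE6.N r s = tabE6.nv r s from Tab.M_one certE6.good (u := u)
        ((Tab.vec_add_iff certE6.good).2 ⟨h1, h2⟩)]
      refine (mono_sub ((br_spec r s).resolve_left
        fun e => cbE6.ne_neg_of_add h (Fin.ext e))).trans ?_
      ext a b
      simp [mono, h1, h2]
    br_none r s h h' := by
      have h1 : tabE6.code r s = 0 := by_contra fun e =>
        h ⟨_, ((if_neg e).mp (certE6.good.add_spec r.2 s.2)).1⟩ (add_iff.2 ⟨e, rfl⟩)
      rw [← sub_eq_zero, mono_mul, mono_mul]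
      refine (mono_sub ((br_spec r s).resolve_left fun e => h' (Fin.ext e))).trans ?_
      ext a b
      simp [mono, h1] }
  (fun a h => (smul_eq_zero.1 h).resolve_left two_ne_zero)
  (fun r => by rw [mono_mul]; ext a b; simp only [mono, (neg_spec r _).1]; simp)
  fun r => by
    rw [mono_mul, mono_mul]
    ext a b
    obtain ⟨-, h1, h2⟩ := neg_spec r b
    change (if a = tg r (tg (tabE6.neg r) (tg r b)) then sg r (tg (tabE6.neg r) (tg r b)) *
      sg (tabE6.neg r) (tg r b) * sg r b else 0) = if a = tg r b then sg r b else 0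
    rw [h2]
    rcases h1 with h1 | h1 <;> simp [h1]

variable (F : Type*) [Field F]

/-- The representation of the Steinberg group. -/
noncomputable def st : StRep cbE6 F (GL I27 F) :=
  (rep.map (Int.castRingHom F).mapMatrix).st F sameLenE6.n3

theorem val_st_x (r : Fin chevE6.nroots) (t : F) : ((st F).x r t).1 = 1 + t • eF F r := by
  rw [st, MinRep.val_st_x]
  congr 2
  ext a b
  simp [MinRep.map_e, rep, LieRep.toMin, eF, mono]

theorem st_mem (r : Fin chevE6.nroots) (t : F) : (st F).x r t ∈ E6univ F := fun v => by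
  rw [Units.coeHom_apply, val_st_x]; exact T_root r t v

theorem st_Gp (hF : ∃ s : F, s ≠ 0 ∧ s ≠ 1) : (st F).Gp = E6univ F := by
  have h1 : (st F).Gp ≤ E6univ F := (st F).U_le_iff.2 fun r _ => st_mem F r
  refine h1.antisymm (le_of_tor hF h1 (fun r t => ⟨_, (st F).x_mem_Gp r t, val_st_x F r t⟩)
    fun c => ?_)
  have h3 : (st F).R3 := MinRep.r3_st _ F _
  have h4 := h3.tor_apply_of_diag (Units.coeHom _) wt (fun i t => rep.val_st_h_mat _ (by
    refine (congrArg₂ _ (mono_mul ..) (mono_mul ..)).trans ((mono_sub (wt_spec i)).trans ?_)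
    ext a b
    by_cases h : a = b <;> simp [mono, h]) F t) fun i => ∏ j, c j ^ inv6 i j
  refine ⟨_, (st F).H_le_Gp (h3.range_tor.le ⟨_, rfl⟩), _, h4, fun l => ?_⟩
  change ∏ i : Fin 6, (∏ j, c j ^ inv6 i j) ^ wt (fr l) i = c l
  simp only [← prod_zpow, ← _root_.zpow_mul]
  rw [prod_comm]
  have : ∀ (x : Fˣ) (f : Fin 6 → ℤ), ∏ i, x ^ f i = x ^ ∑ i, f i := fun x f => by
    simp [Fin.prod_univ_six, Fin.sum_univ_six, _root_.zpow_add]
  simp only [this, inv6_spec]
  simp

theorem nonempty_equiv (hF : ∃ s : F, s ≠ 0 ∧ s ≠ 1) :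
    Nonempty (Cfsg.Lie.E6 F ≃* chevE6.group F) := by
  have h1 : ((st F).codRestrict _ (st_mem F)).Gp = ⊤ := by
    rw [PreSt.Gp, StRep.codRestrict_U, Subgroup.subgroupOf_eq_top]; exact (st_Gp F hF).ge
  have : Nontrivial (E6univ F) := by
    obtain ⟨r, h1, h2⟩ := exists_root (0, 0, 0) (0, 0, 1) (by decide) (by decide)
    refine ⟨⟨⟨_, st_mem F r 1⟩, 1, fun e => ?_⟩⟩
    have := congrFun₂ ((val_st_x F r 1).symm.trans (congrArg (·.1.1) e)) (0, 0, 1) (0, 0, 0)
    simp [eF, mono, h1] at this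
    simpa [this] using sg_sq (F := F) h2
  obtain ⟨e⟩ := goodE6.nonempty_equiv_quot (StRep.faithful_of_nontrivial goodE6.conn
    (goodE6.perf_of_two_lt hF) h1) h1 id (fun i j => congrFun₂ goodE6.link.car_eq i j)
    Function.surjective_id
  exact ⟨e.symm⟩

end CF.Geom.E6
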