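/-
McLaughlin's theorem on groups generated by full transvection subgroups (odd characteristic):
calculus of transvections and "pieces".
-/
import Cfsg.Agent.Geom.SLT

set_option autoImplicit false
set_option linter.unusedSectionVars false

namespace CF.Geom.McL

open Module

variable {F V : Type*} [Field F] [AddCommGroup V] [Module F V] {H : Subgroup (V ≃ₗ[F] V)}

/-- The transvection `x ↦ x + φ x • v` lies in `H`. -/
def Tv (H : Subgroup (V ≃ₗ[F] V)) (v : V) (φ : Dual F V) : Prop :=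
  φ v = 0 ∧ ∃ g ∈ H, ∀ x, g x = x + φ x • v

theorem Tv.zero_left (φ : Dual F V) : Tv H 0 φ := ⟨map_zero _, 1, one_mem _, by simp⟩

theorem Tv.zero_right (v : V) : Tv H v 0 := ⟨rfl, 1, one_mem _, by simp⟩

theorem Tv.of_eq {v v' : V} {φ φ' : Dual F V} (h : Tv H v φ) (e : v' = v) (e' : φ' = φ) :
    Tv H v' φ' := e ▸ e' ▸ h

theorem Tv.addL {v w : V} {φ : Dual F V} (h : Tv H v φ) (h' : Tv H w φ) : Tv H (v + w) φ := by
  obtain ⟨a, g, hg, e⟩ := h
  obtain ⟨b, g', hg', e'⟩ := h'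
  refine ⟨by simp [a, b], g * g', mul_mem hg hg', fun x => ?_⟩
  simp [e, e', b]; abel

theorem Tv.addR {v : V} {φ ψ : Dual F V} (h : Tv H v φ) (h' : Tv H v ψ) : Tv H v (φ + ψ) := by
  obtain ⟨a, g, hg, e⟩ := h
  obtain ⟨b, g', hg', e'⟩ := h'
  refine ⟨by simp [a, b], g * g', mul_mem hg hg', fun x => ?_⟩
  simp [e, e', a, add_smul]; abel

theorem Tv.conj {v : V} {φ ψ : Dual F V} (h : Tv H v φ) {g : V ≃ₗ[F] V} (hg : g ∈ H)
    (e : ∀ x, ψ (g x) = φ x) : Tv H (g v) ψ := by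
  obtain ⟨a, t, ht, e'⟩ := h
  refine ⟨(e v).trans a, g * t * g⁻¹, mul_mem (mul_mem hg ht) (inv_mem hg), fun x => ?_⟩
  obtain ⟨x, rfl⟩ := g.surjective x
  simp [e, e', inv_apply_apply]

theorem Tv.cj {x v : V} {ξ φ : Dual F V} (h : Tv H x ξ) (h' : Tv H v φ) :
    Tv H (v + ξ v • x) (φ - φ x • ξ) := by
  obtain ⟨a, g, hg, e⟩ := h
  rw [← e]
  exact h'.conj hg fun y => by simp [e, a, mul_comm]

/-- The reflection attached to the idempotent `π` lies in `H`. -/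
def Neg (H : Subgroup (V ≃ₗ[F] V)) (π : End F V) : Prop :=
  ∃ g ∈ H, ∀ x, g x = x - (2 : F) • π x

theorem Neg.tv {π : End F V} (h : Neg H π) (hπ : ∀ x, π (π x) = π x) {w : V} {ψ : Dual F V}
    (h' : Tv H w ψ) : Tv H (w - (2 : F) • π w) (ψ - (2 : F) • ψ ∘ₗ π) := by
  obtain ⟨g, hg, e⟩ := h
  rw [← e]
  exact h'.conj hg fun y => by simp [e, hπ]; ring

/-- The projection on the plane of an opposite pair. -/
def pl (a : V) (α : Dual F V) (b : V) (β : Dual F V) : End F V :=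
  (β a)⁻¹ • β.smulRight a + (α b)⁻¹ • α.smulRight b

theorem pl_apply (a : V) (α : Dual F V) (b : V) (β : Dual F V) (x : V) :
    pl a α b β x = ((β a)⁻¹ * β x) • a + ((α b)⁻¹ * α x) • b := by
  simp [pl, smul_smul]

theorem pl_idem {a b : V} {α β : Dual F V} (h1 : α a = 0) (h2 : β b = 0) (h3 : α b ≠ 0)
    (h4 : β a ≠ 0) (x : V) : pl a α b β (pl a α b β x) = pl a α b β x := by
  simp only [pl_apply, map_add, map_smul, h1, h2, inv_mul_cancel₀ h3, inv_mul_cancel₀ h4]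
  simp

/-- The standing hypotheses. -/
structure MC (H : Subgroup (V ≃ₗ[F] V)) : Prop where
  two : (2 : F) ≠ 0
  smul : ∀ v φ (c : F), Tv H v φ → Tv H (c • v) φ
  opp : ∀ v φ, Tv H v φ → v ≠ 0 → φ ≠ 0 → ∃ w ψ, Tv H w ψ ∧ φ w ≠ 0 ∧ ψ v ≠ 0

namespace MC

variable (h : MC H)
include h

theorem smulR {v : V} {φ : Dual F V} (c : F) (h' : Tv H v φ) : Tv H v (c • φ) := by
  obtain ⟨-, g, hg, e⟩ := h.smul v φ c h'
  exact ⟨by simp [h'.1], g, hg, fun x => by simp [e, smul_smul, mul_comm]⟩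

theorem ofL {v : V} {φ : Dual F V} {c : F} (hc : c ≠ 0) (h' : Tv H (c • v) φ) : Tv H v φ := by
  simpa [smul_smul, hc] using h.smul _ _ c⁻¹ h'

theorem ofR {v : V} {φ : Dual F V} {c : F} (hc : c ≠ 0) (h' : Tv H v (c • φ)) : Tv H v φ := by
  simpa [smul_smul, hc] using h.smulR c⁻¹ h'

theorem subL {v w : V} {φ : Dual F V} (h1 : Tv H v φ) (h2 : Tv H w φ) : Tv H (v - w) φ := by
  simpa [sub_eq_add_neg] using h1.addL (h.smul _ _ (-1) h2)

theorem subR {v : V} {φ ψ : Dual F V} (h1 : Tv H v φ) (h2 : Tv H v ψ) : Tv H v (φ - ψ) := by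
  exact (h1.addR (h.smulR (-1) h2)).of_eq rfl (by module)

theorem moveR {x v : V} {ξ φ : Dual F V} (h1 : Tv H x ξ) (h2 : Tv H v φ) (e : ξ v = 0)
    (e' : φ x ≠ 0) : Tv H v ξ := by
  have := h1.cj h2
  rw [e, zero_smul, add_zero] at this
  exact h.ofR e' ((h.subR h2 this).of_eq rfl (by simp))

theorem moveL {x v : V} {ξ φ : Dual F V} (h1 : Tv H x ξ) (h2 : Tv H v φ) (e : φ x = 0)
    (e' : ξ v ≠ 0) : Tv H x φ := by
  have := h1.cj h2
  rw [e, zero_smul, sub_zero] at this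
  exact h.ofL e' ((h.subL this h2).of_eq (by simp) rfl)

theorem plane {a b : V} {α β : Dual F V} (h1 : Tv H a α) (h2 : Tv H b β) (h3 : α b ≠ 0)
    (s r : F) : Tv H (s • a + r • b) ((s * β a) • α - (r * α b) • β) := by
  by_cases hr : r = 0
  · simpa [hr] using h.smulR (s * β a) (h.smul _ _ s h1)
  refine (h.smulR (-(r * α b)) (h.smul _ _ r ((h.smul _ _ (s / (r * α b)) h1).cj h2))).of_eq ?_ ?_
  · simp only [smul_add, smul_smul]
    rw [add_comm]; congr 2; field_simp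
  · simp only [smul_sub, smul_smul, map_smul, smul_eq_mul]
    rw [neg_smul, neg_mul, neg_smul, sub_neg_eq_add, add_comm, ← sub_eq_add_neg]
    congr 2; field_simp

theorem neg_pl {a b : V} {α β : Dual F V} (h1 : Tv H a α) (h2 : Tv H b β) (h3 : α b ≠ 0)
    (h4 : β a ≠ 0) : Neg H (pl a α b β) := by
  obtain ⟨a1, s, hs, e1⟩ := h.smulR (α b)⁻¹ h1
  obtain ⟨a2, t, ht, e2⟩ := h.smulR (-(β a)⁻¹) h2
  refine ⟨s * t * s * (s * t * s), by apply_rules [mul_mem], fun x => ?_⟩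
  simp only [LinearEquiv.mul_apply, e1, e2, pl_apply, map_add, map_smul, LinearMap.smul_apply,
    h1.1, h2.1, smul_eq_mul]
  match_scalars <;> field_simp <;> ring

theorem prod3 {u w : V} {χ ψ : Dual F V} (h1 : Tv H (u + w) (χ + ψ)) (h2 : Tv H (-u + w) (-χ + ψ))
    (h3 : Tv H u χ) (e1 : ψ u = 0) (e2 : χ w = 0) : Tv H w ψ := by
  obtain ⟨a1, r, hr, f1⟩ := h1
  obtain ⟨-, s, hs, f2⟩ := h2
  obtain ⟨-, t, ht, f3⟩ := h.smul _ _ (-2) h3
  have e3 : ψ w = 0 := by simpa [h3.1, e1, e2] using a1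
  refine h.ofL h.two ⟨by simp [e3], r * s * t, by apply_rules [mul_mem], fun x => ?_⟩
  simp only [LinearEquiv.mul_apply, f1, f2, f3, map_add, map_smul, map_neg, LinearMap.add_apply,
    LinearMap.neg_apply, h3.1, e1, e2, e3, smul_eq_mul]
  module

end MC

/-- The form `ξ` vanishes on the kernel of `e`. -/
def InD (e : End F V) (ξ : Dual F V) : Prop := ∀ x, ξ (e x) = ξ x

theorem exists_sep {e : End F V} (he : ∀ x, e (e x) = e x) {u b : V} (hu : e u = u) (hb : e b = b)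
    (h : b ∉ F ∙ u) : ∃ α, InD e α ∧ α u = 0 ∧ α b ≠ 0 := by
  obtain ⟨φ, h1, h2⟩ := exists_dual_one h
  exact ⟨φ ∘ₗ e, fun x => by simp [he], by simp [hu, h2], by simp [hb, h1]⟩

theorem InD.exists_ne {e : End F V} (he : ∀ x, e (e x) = e x) {χ : Dual F V} (h : InD e χ)
    (h0 : χ ≠ 0) : ∃ x, e x = x ∧ χ x ≠ 0 := by
  obtain ⟨x, hx⟩ := DFunLike.ne_iff.1 h0
  exact ⟨e x, he x, by rwa [h]⟩

theorem exists_dual_ne {e : End F V} (he : ∀ x, e (e x) = e x) {u : V} (hu : e u = u)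
    (h0 : u ≠ 0) : ∃ ξ, InD e ξ ∧ ξ u ≠ 0 := by
  obtain ⟨α, h1, -, h2⟩ := exists_sep (F := F) he (map_zero e) hu (by simpa using h0)
  exact ⟨α, h1, h2⟩

/-- A piece of linear type. -/
structure SLp (H : Subgroup (V ≃ₗ[F] V)) (e : End F V) : Prop where
  idem : ∀ x, e (e x) = e x
  all : ∀ u ξ, e u = u → InD e ξ → ξ u = 0 → Tv H u ξ
  dim : 3 ≤ finrank F (LinearMap.range e)

/-- A piece of symplectic type. -/
structure Spp (H : Subgroup (V ≃ₗ[F] V)) (e : End F V) (J : V →ₗ[F] Dual F V) : Prop where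
  idem : ∀ x, e (e x) = e x
  alt : ∀ u, J u u = 0
  inD : ∀ u, InD e (J u)
  surj : ∀ ξ, InD e ξ → ∃ u, e u = u ∧ J u = ξ
  inj : ∀ u, e u = u → J u = 0 → u = 0
  tv : ∀ u, e u = u → Tv H u (J u)
  neg : Neg H e
  pos : ∃ u, e u = u ∧ u ≠ 0

variable {e : End F V} {J : V →ₗ[F] Dual F V}

theorem skew (hJ : ∀ u, J u u = 0) (u v : V) : J u v = -J v u := by
  have := hJ (u + v)
  simp only [map_add, LinearMap.add_apply, hJ] at this
  linear_combination this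

namespace SLp

theorem exists_three (h : SLp H e) (u x : V) : ∃ y, e y = y ∧ y ∉ Submodule.span F {u, x} := by
  classical
  by_contra! hc
  have : FiniteDimensional F (Submodule.span F {u, x}) :=
    FiniteDimensional.span_of_finite F (Set.toFinite _)
  have h1 := Submodule.finrank_mono (show LinearMap.range e ≤ Submodule.span F {u, x} by
    rintro _ ⟨y, rfl⟩; exact hc _ (h.idem y))
  have h2 := (finrank_span_finset_le_card (R := F) {u, x}).trans Finset.card_le_two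
  rw [Set.finrank, Finset.coe_pair] at h2
  have := h.dim
  omega

theorem exists_dual (h : SLp H e) {u x : V} (hu : e u = u) (hx : e x = x) :
    ∃ ξ, InD e ξ ∧ ξ ≠ 0 ∧ ξ u = 0 ∧ ξ x = 0 := by
  obtain ⟨y, h1, h2⟩ := h.exists_three u x
  obtain ⟨φ, h3, h4⟩ := exists_dual_one h2
  exact ⟨φ ∘ₗ e, fun x => by simp [h.idem], fun e' => by simpa [h1, h3] using congr($e' y),
    by simp [hu, h4 u (Submodule.subset_span (by simp))],
    by simp [hx, h4 x (Submodule.subset_span (by simp))]⟩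

theorem exists_ker (h : SLp H e) (χ : Dual F V) : ∃ b, e b = b ∧ b ≠ 0 ∧ χ b = 0 := by
  obtain ⟨x, h1, h2⟩ := h.exists_three 0 0
  obtain ⟨y, h3, h4⟩ := h.exists_three x x
  have x0 : x ≠ 0 := fun e => h2 (by rw [e]; exact zero_mem _)
  by_cases h5 : χ x = 0
  · exact ⟨x, h1, x0, h5⟩
  refine ⟨y - (χ y / χ x) • x, by simp [h1, h3], fun e => h4 ?_, by simp [h5]⟩
  rw [sub_eq_zero.1 e]
  exact Submodule.smul_mem _ _ (Submodule.subset_span (by simp))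

theorem neg (h : SLp H e) (hH : MC H) {w : V} {ψ : Dual F V} (ht : Tv H w ψ) (hu : e w ≠ 0)
    (hχ : ψ ∘ₗ e ≠ 0) : Tv H (w - (2 : F) • e w) (ψ - (2 : F) • ψ ∘ₗ e) := by
  have hD : InD e (ψ ∘ₗ e) := fun x => by simp [h.idem]
  have key : ∀ (b : V) (α β : Dual F V), e b = b → InD e α → InD e β → α (e w) = 0 → β b = 0 →
      α b ≠ 0 → β (e w) ≠ 0 → ψ ∘ₗ pl (e w) α b β = ψ ∘ₗ e →
      Tv H (w - (2 : F) • e w) (ψ - (2 : F) • ψ ∘ₗ e) := fun b α β h1 h2 h3 h4 h5 h6 h7 h8 => by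
    have := (hH.neg_pl (h.all _ _ (h.idem w) h2 h4) (h.all _ _ h1 h3 h5) h6 h7).tv
      (pl_idem h4 h5 h6 h7) ht
    rwa [h8, pl_apply, ← h3 w, ← h2 w, h4, inv_mul_cancel₀ h7, mul_zero, zero_smul, add_zero,
      one_smul] at this
  by_cases hc : ψ (e w) = 0
  · obtain ⟨b, b1, b2⟩ := hD.exists_ne h.idem hχ
    obtain ⟨β, c1, c2, c3⟩ := exists_sep h.idem b1 (h.idem w) fun hm => by
      obtain ⟨c, hc'⟩ := Submodule.mem_span_singleton.1 hm
      rw [← hc', map_smul, smul_eq_mul, mul_eq_zero] at hc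
      rcases hc with rfl | hc
      · exact hu (by simp [← hc'])
      · exact b2 (by simpa [b1] using hc)
    refine key b _ β b1 hD c1 (by simp [h.idem, hc]) c2 b2 c3 (LinearMap.ext fun x => ?_)
    have : ψ b ≠ 0 := by simpa [b1] using b2
    simp [pl_apply, hc, b1]
    field_simp
  · obtain ⟨b, b1, b2, b3⟩ := h.exists_ker ψ
    obtain ⟨α, c1, c2, c3⟩ := exists_sep h.idem (h.idem w) b1 fun hm => by
      obtain ⟨c, rfl⟩ := Submodule.mem_span_singleton.1 hm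
      rw [map_smul, smul_eq_mul, mul_eq_zero] at b3
      rcases b3 with rfl | b3
      · simp at b2
      · exact hc b3
    refine key b α _ b1 c1 hD c2 (by simp [b1, b3]) c3 (by simpa [h.idem] using hc)
      (LinearMap.ext fun x => ?_)
    simp [pl_apply, h.idem, b3]
    field_simp

end SLp

namespace Spp

theorem J_e (h : Spp H e J) (u : V) : J (e u) = J u :=
  LinearMap.ext fun x => by rw [skew h.alt, h.inD, ← skew h.alt]

theorem exists_ne (h : Spp H e J) {u : V} (hu : e u = u) (h0 : u ≠ 0) :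
    ∃ x, e x = x ∧ J x u ≠ 0 := by
  obtain ⟨x, h1, h2⟩ := (h.inD u).exists_ne h.idem (mt (h.inj u hu) h0)
  exact ⟨x, h1, by rwa [skew h.alt, neg_ne_zero]⟩

theorem exists_sep (h : Spp H e J) {u v : V} (hu : e u = u) (hv : e v = v) (h0 : v ∉ F ∙ u) :
    ∃ x, e x = x ∧ J x u = 0 ∧ J x v ≠ 0 := by
  obtain ⟨α, h1, h2, h3⟩ := McL.exists_sep h.idem hu hv h0
  obtain ⟨x, h4, rfl⟩ := h.surj α h1
  exact ⟨x, h4, h2, h3⟩

theorem trans (h : Spp H e J) {Q : V → Prop}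
    (hQ : ∀ x m, e x = x → e m = m → J m x ≠ 0 → Q x → Q (x + m)) {y x : V} (hy : e y = y)
    (y0 : y ≠ 0) (hx : e x = x) (x0 : x ≠ 0) (q : Q y) : Q x := by
  have step : ∀ y x, e y = y → e x = x → J x y ≠ 0 → Q y → Q x := fun y x hy hx h1 q => by
    simpa using hQ y (x - y) hy (by simp [hx, hy]) (by simpa [h.alt] using h1) q
  obtain ⟨a, a1, a2⟩ := h.exists_ne hy y0
  obtain ⟨b, b1, b2⟩ := h.exists_ne hx x0
  obtain ⟨z, z1, z2, z3⟩ : ∃ z, e z = z ∧ J z y ≠ 0 ∧ J z x ≠ 0 := by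
    by_cases h1 : J a x = 0
    · by_cases h2 : J b y = 0
      · exact ⟨a + b, by simp [a1, b1], by simpa [h2] using a2, by simpa [h1] using b2⟩
      · exact ⟨b, b1, h2, b2⟩
    · exact ⟨a, a1, a2, h1⟩
  exact step z x z1 hx (by rwa [skew h.alt, neg_ne_zero]) (step y z hy z1 z2 q)

theorem all (h : Spp H e J) (hH : MC H) {u v : V} (hu : e u = u) (u0 : u ≠ 0) (hv : e v = v)
    (h0 : v ∉ F ∙ u) (ht : Tv H u (J v)) (x : V) (ξ : Dual F V) (hx : e x = x) (hξ : InD e ξ)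
    (e0 : ξ x = 0) : Tv H x ξ := by
  by_cases x0 : x = 0
  · exact x0 ▸ Tv.zero_left _
  refine h.trans (Q := fun x => ∀ ξ, InD e ξ → ξ x = 0 → Tv H x ξ) (fun x m hx hm h1 q η h2 h3 => ?_)
    hu u0 hx x0 (fun η h1 h2 => ?_) ξ hξ e0
  · refine ((hH.smul _ _ (J m x)⁻¹ (h.tv m hm)).cj (q (η + ((J m x)⁻¹ * η m) • J m)
      (fun z => by simp [h2 z, h.inD m z]) ?_)).of_eq (by simp [smul_smul, h1]) ?_
    · simpa [mul_right_comm _ (η m), h1] using h3
    · simp [h.alt]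
  · obtain ⟨y, y1, rfl⟩ := h.surj η h1
    have key : ∀ y, e y = y → J y u = 0 → J y v ≠ 0 → Tv H u (J y) := fun y y1 y2 y3 =>
      hH.moveR (h.tv y y1) ht y2 (by rwa [skew h.alt, neg_ne_zero])
    by_cases h3 : J y v = 0
    · obtain ⟨z, z1, z2, z3⟩ := h.exists_sep hu hv h0
      exact (hH.subR (key (y + z) (by simp [y1, z1]) (by simp [h2, z2]) (by simpa [h3] using z3))
        (key z z1 z2 z3)).of_eq rfl (by simp)
    · exact key y y1 h2 h3

end Spp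

/-- A piece. -/
def Pc (H : Subgroup (V ≃ₗ[F] V)) (e : End F V) : Prop := SLp H e ∨ ∃ J, Spp H e J

namespace Pc

theorem idem (h : Pc H e) (x : V) : e (e x) = e x := h.elim (·.idem x) fun ⟨_, h⟩ => h.idem x

theorem pos (h : Pc H e) : ∃ u, e u = u ∧ u ≠ 0 := by
  obtain h | ⟨J, h⟩ := h
  · obtain ⟨b, h1, h2, -⟩ := h.exists_ker 0
    exact ⟨b, h1, h2⟩
  · exact h.pos

theorem cen (h : Pc H e) {x : V} (hx : e x = x) (x0 : x ≠ 0) :
    ∃ ξ, InD e ξ ∧ ξ ≠ 0 ∧ Tv H x ξ := by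
  obtain h | ⟨J, h⟩ := h
  · obtain ⟨ξ, h1, h2, h3, -⟩ := h.exists_dual hx hx
    exact ⟨ξ, h1, h2, h.all _ _ hx h1 h3⟩
  · exact ⟨J x, h.inD x, mt (h.inj x hx) x0, h.tv x hx⟩

theorem ax (h : Pc H e) {ξ : Dual F V} (hξ : InD e ξ) (h0 : ξ ≠ 0) :
    ∃ x, e x = x ∧ x ≠ 0 ∧ Tv H x ξ := by
  obtain h | ⟨J, h⟩ := h
  · obtain ⟨x, h1, h2, h3⟩ := h.exists_ker ξ
    exact ⟨x, h1, h2, h.all _ _ h1 hξ h3⟩
  · obtain ⟨x, h1, rfl⟩ := h.surj ξ hξ
    exact ⟨x, h1, fun e => h0 (by simp [e]), h.tv x h1⟩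

theorem neg (h : Pc H e) (hH : MC H) {w : V} {ψ : Dual F V} (ht : Tv H w ψ) (hu : e w ≠ 0)
    (hχ : ψ ∘ₗ e ≠ 0) : Tv H (w - (2 : F) • e w) (ψ - (2 : F) • ψ ∘ₗ e) :=
  h.elim (fun h => h.neg hH ht hu hχ) fun ⟨_, h⟩ => h.neg.tv h.idem ht

theorem allR (h : Pc H e) (hH : MC H) {w : V} (hw : e w = 0) {χ : Dual F V} (hχ : InD e χ)
    (h0 : χ ≠ 0) (ht : Tv H w χ) {ξ : Dual F V} (hξ : InD e ξ) : Tv H w ξ := by
  have h1 : ∀ ξ, InD e ξ → ξ w = 0 := fun ξ hξ => by rw [← hξ, hw, map_zero]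
  obtain ⟨y, y1, y2⟩ := hχ.exists_ne h.idem h0
  obtain h | ⟨J, h⟩ := h
  · by_cases h2 : ∀ x, ξ x = 0 → χ x = 0
    · have h3 : ξ y ≠ 0 := mt (h2 y) y2
      refine hH.ofR (c := χ y / ξ y) (div_ne_zero y2 h3) (ht.of_eq rfl (LinearMap.ext fun x => ?_))
      have := h2 (x - (ξ x / ξ y) • y) (by simp [h3])
      simp only [map_sub, map_smul, smul_eq_mul, LinearMap.smul_apply] at this ⊢
      rw [sub_eq_zero.1 this]; field_simp
    push Not at h2
    obtain ⟨x, x1, x2⟩ := h2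
    exact hH.moveR (h.all (e x) ξ (h.idem x) hξ (by rwa [hξ])) ht (h1 ξ hξ) (by rwa [hχ])
  · obtain ⟨x, x1, rfl⟩ := h.surj ξ hξ
    have key : ∀ x, e x = x → χ x ≠ 0 → Tv H w (J x) := fun x x1 x2 =>
      hH.moveR (h.tv x x1) ht (h1 _ (h.inD x)) x2
    by_cases h3 : χ x = 0
    · exact (hH.subR (key (x + y) (by simp [y1, x1]) (by simpa [h3] using y2))
        (key y y1 y2)).of_eq rfl (by simp)
    · exact key x x1 h3

theorem allL (h : Pc H e) (hH : MC H) {ψ : Dual F V} (hψ : ∀ x, ψ (e x) = 0) {u : V} (hu : e u = u)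
    (h0 : u ≠ 0) (ht : Tv H u ψ) {x : V} (hx : e x = x) : Tv H x ψ := by
  have h1 : ∀ x, e x = x → ψ x = 0 := fun x hx => by rw [← hx, hψ]
  obtain h | ⟨J, h⟩ := h
  · by_cases h2 : u ∈ F ∙ x
    · obtain ⟨c, rfl⟩ := Submodule.mem_span_singleton.1 h2
      exact hH.ofL (left_ne_zero_of_smul h0) ht
    obtain ⟨α, a1, a2, a3⟩ := exists_sep h.idem hx hu h2
    exact hH.moveL (h.all x α hx a1 a2) ht (h1 x hx) a3
  · obtain ⟨y, y1, y2⟩ := h.exists_ne hu h0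
    have key : ∀ x, e x = x → J x u ≠ 0 → Tv H x ψ := fun x x1 x2 =>
      hH.moveL (h.tv x x1) ht (h1 x x1) x2
    by_cases h3 : J x u = 0
    · exact (hH.subL (key (x + y) (by simp [y1, hx]) (by simpa [h3] using y2))
        (key y y1 y2)).of_eq (by simp) rfl
    · exact key x hx h3

end Pc

end CF.Geom.McL
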