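/-
McLaughlin's theorem: growth of pieces and closed pieces.
-/
import Cfsg.Agent.Geom.McL1

set_option autoImplicit false
set_option linter.unusedSectionVars false

namespace CF.Geom.McL

open Module

variable {F V : Type*} [Field F] [AddCommGroup V] [Module F V] {H : Subgroup (V ≃ₗ[F] V)}
  {e : End F V} {J : V →ₗ[F] Dual F V}

/-- The piece `e` can be enlarged. -/
def Grow (H : Subgroup (V ≃ₗ[F] V)) (e : End F V) : Prop :=
  ∃ e₂, Pc H e₂ ∧ (∀ x, e₂ (e x) = e x) ∧ (∀ x, e (e₂ x) = e x) ∧ ∃ x, e₂ x = x ∧ e x ≠ x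

theorem two_le_rank [FiniteDimensional F V] (h : Pc H e) : 2 ≤ finrank F (LinearMap.range e) := by
  obtain h | ⟨J, h⟩ := h
  · exact le_trans (by norm_num) h.dim
  obtain ⟨u, u1, u0⟩ := h.pos
  obtain ⟨x, x1, x2⟩ := h.exists_ne u1 u0
  have h1 : (F ∙ u) < LinearMap.range e := lt_of_le_of_ne
    ((Submodule.span_singleton_le_iff_mem _ _).2 ⟨u, u1⟩) fun e' => by
      obtain ⟨c, rfl⟩ := Submodule.mem_span_singleton.1 (e' ▸ ⟨x, x1⟩ : x ∈ F ∙ u)
      simp [h.alt] at x2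
  have := Submodule.finrank_lt_finrank_of_lt h1
  rw [finrank_span_singleton u0] at this
  omega

theorem grow_ne [FiniteDimensional F V] (hH : MC H) (h : Pc H e) {w : V} {ψ : Dual F V}
    (ht : Tv H w ψ) (hc : ψ (e w) ≠ 0) : Grow H e := by
  have hu : e w ≠ 0 := fun e' => hc (by simp [e'])
  have hχ : ψ ∘ₗ e ≠ 0 := fun e' => hc congr($e' w)
  have hn := h.neg hH ht hu hχ
  have h2 := hH.two
  have a1 : ψ (w - (2 : F) • e w) = -2 * ψ (e w) := by simp [ht.1]
  have a2 : (ψ - (2 : F) • ψ ∘ₗ e) w = -2 * ψ (e w) := by simp [ht.1]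
  have a3 : ψ (w - (2 : F) • e w) ≠ 0 := by simp [a1, hc, h2]
  have hD : InD e (ψ ∘ₗ e) := fun x => by simp [h.idem]
  obtain ⟨w', hw'⟩ : ∃ w', w' = w - e w := ⟨_, rfl⟩
  obtain ⟨ψ', hψ'⟩ : ∃ ψ', ψ' = -(ψ (e w))⁻¹ • (ψ - ψ ∘ₗ e) := ⟨_, rfl⟩
  have b1 : e w' = 0 := by simp [hw', h.idem]
  have b2 : ∀ x, ψ' (e x) = 0 := fun x => by simp [hψ', h.idem]
  have b3 : ψ' w' = 1 := by simp [hψ', hw', h.idem, ht.1, hc]
  have c1 : Tv H (e w) ψ' := by
    refine (hH.smulR ((2 * ψ (e w) ^ 2)⁻¹) (hH.plane ht hn a3 2⁻¹ (-2⁻¹))).of_eq ?_ ?_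
    · match_scalars <;> field_simp <;> ring
    · rw [a1, a2, hψ']; match_scalars <;> field_simp <;> ring
  have c2 : Tv H w' (ψ ∘ₗ e) := by
    refine (hH.smulR (-(2 * ψ (e w))⁻¹) (hH.plane ht hn a3 2⁻¹ 2⁻¹)).of_eq ?_ ?_
    · rw [hw']; match_scalars <;> field_simp <;> ring
    · rw [a1, a2]; match_scalars <;> field_simp <;> ring
  have d1 := fun x hx => h.allL hH b2 (h.idem w) hu c1 (x := x) hx
  have d2 := fun ξ hξ => h.allR hH b1 hD hχ c2 (ξ := ξ) hξ
  let e₂ : End F V := e + ψ'.smulRight w'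
  have he : ∀ x, e₂ x = e x + ψ' x • w' := fun x => rfl
  have f1 : ∀ x, e₂ (e x) = e x := fun x => by simp [he, h.idem, b2]
  have f2 : e₂ w' = w' := by simp [he, b1, b3]
  have f3 : e w' ≠ w' := fun e' => by rw [← e', b2] at b3; exact zero_ne_one b3
  refine ⟨e₂, .inl ⟨fun x => by simp [he, h.idem, b1, b2, b3], fun y η hy hη h0 => ?_, ?_⟩, f1,
    fun x => by simp [he, h.idem, b1], w', f2, f3⟩
  · have hξ : InD e (η ∘ₗ e) := fun x => by simp [h.idem]
    have g1 : η = η ∘ₗ e + η w' • ψ' := LinearMap.ext fun x => by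
      rw [← hη x, he]; simp [mul_comm]
    have g2 : η (e y) + ψ' y * η w' = 0 := by rw [← h0, ← hη y, he]; simp
    by_cases hs : ψ' y = 0
    · have g3 : e y = y := by rw [← hy, he, hs]; simp [h.idem]
      have := (d2 _ hξ).cj (d1 y g3)
      rw [hs, zero_mul, add_zero] at g2
      rw [LinearMap.comp_apply, g2, zero_smul, add_zero, b3, one_smul] at this
      exact ((hH.subR (d1 y g3) this).addR (hH.smulR (η w') (d1 y g3))).of_eq rfl (by
        rw [sub_sub_cancel, ← g1])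
    · refine (hH.smul _ _ (ψ' y) ((d1 ((ψ' y)⁻¹ • e y) (by simp [h.idem])).cj
        (d2 _ hξ))).of_eq ?_ ?_
      · rw [b3, one_smul, smul_add, smul_smul, mul_inv_cancel₀ hs, one_smul, add_comm, ← he, hy]
      · refine g1.trans (LinearMap.ext fun x => ?_)
        simp only [map_smul, LinearMap.comp_apply, h.idem, smul_eq_mul, LinearMap.add_apply,
          LinearMap.sub_apply, LinearMap.smul_apply]
        field_simp
        linear_combination ψ' x * g2
  · have := two_le_rank h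
    have := Submodule.finrank_lt_finrank_of_lt (show LinearMap.range e < LinearMap.range e₂ from
      lt_of_le_of_ne (by rintro _ ⟨x, rfl⟩; exact ⟨_, f1 x⟩) fun e' => by
        obtain ⟨x, hx⟩ : w' ∈ LinearMap.range e := e' ▸ ⟨_, f2⟩
        exact f3 (by rw [← hx, h.idem]))
    omega

theorem grow_R [FiniteDimensional F V] (hH : MC H) (h : Pc H e) {w : V} {χ : Dual F V}
    (ht : Tv H w χ) (hw : e w = 0) (w0 : w ≠ 0) (hχ : InD e χ) (h0 : χ ≠ 0) : Grow H e := by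
  obtain ⟨y, η, h1, h2, h3⟩ := hH.opp _ _ ht w0 h0
  by_cases hc : η (e y) = 0
  · refine grow_ne hH h (ht.cj h1) ?_
    simp [hw, hc, hχ y, h2, h3]
  · exact grow_ne hH h h1 hc

theorem grow_L [FiniteDimensional F V] (hH : MC H) (h : Pc H e) {u : V} {ψ : Dual F V}
    (ht : Tv H u ψ) (hu : e u = u) (u0 : u ≠ 0) (hψ : ∀ x, ψ (e x) = 0) (h0 : ψ ≠ 0) :
    Grow H e := by
  obtain ⟨y, η, h1, h2, h3⟩ := hH.opp _ _ ht u0 h0
  by_cases hc : η (e y) = 0
  · refine grow_ne hH h (ht.cj h1) ?_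
    simp [hu, hc, hψ y, h2, h3, ht.1]
  · exact grow_ne hH h h1 hc

theorem trich [FiniteDimensional F V] (hH : MC H) (h : Pc H e) (hg : ¬ Grow H e) {w : V}
    {ψ : Dual F V} (ht : Tv H w ψ) (w0 : w ≠ 0) (h0 : ψ ≠ 0) :
    (e w = w ∧ InD e ψ) ∨ (e w = 0 ∧ ∀ x, ψ (e x) = 0) ∨ ∃ J, Spp H e J ∧ ∃ k : F, k ≠ 0 ∧
      ψ ∘ₗ e = k • J (e w) ∧ e w ≠ 0 ∧ w - e w ≠ 0 ∧ ψ - ψ ∘ₗ e ≠ 0 ∧
        Tv H (w - e w) (ψ - ψ ∘ₗ e) := by
  have hc : ψ (e w) = 0 := by_contra fun hc => hg (grow_ne hH h ht hc)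
  have hD : InD e (ψ ∘ₗ e) := fun x => by simp [h.idem]
  have hD' : ∀ x, (ψ - ψ ∘ₗ e) (e x) = 0 := fun x => by simp [h.idem]
  have hw' : e (w - e w) = 0 := by simp [h.idem]
  by_cases h1 : ψ ∘ₗ e ≠ 0 ∧ w - e w ≠ 0
  · obtain ⟨hχ, w1⟩ := h1
    have key : ∀ x ξ, Tv H x ξ → InD e ξ → ξ ≠ 0 → ξ (e w) = 0 → ψ x ≠ 0 → False :=
      fun x ξ a1 a2 a3 a4 a5 => by
        have a6 := hH.moveR a1 ht (by rwa [← a2]) a5
        refine hg (grow_R hH h ?_ hw' w1 a2 a3)
        by_cases hu : e w = 0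
        · simpa [hu] using a6
        have a7 : ξ ∘ₗ e = ξ := LinearMap.ext a2
        have := hH.smulR (-1) (h.neg hH a6 hu (by rwa [a7]))
        rw [a7] at this
        exact hH.ofL hH.two ((a6.addL (this.of_eq rfl (by module))).of_eq (by module) rfl)
    obtain ⟨x, x1, x2⟩ := hD.exists_ne h.idem hχ
    have x3 : ψ x ≠ 0 := by simpa [x1] using x2
    have hu : e w ≠ 0 := fun hu => by
      obtain ⟨ξ, a1, a2, a3⟩ := h.cen x1 (fun e' => x3 (by simp [e']))
      exact key x ξ a3 a1 a2 (by simp [hu]) x3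
    obtain h' | ⟨J, h'⟩ := id h
    · obtain ⟨ξ, a1, a2, a3, a4⟩ := h'.exists_dual (h.idem w) x1
      exact (key x ξ (h'.all x ξ x1 a1 a4) a1 a2 a3 x3).elim
    obtain ⟨v, v1, v2⟩ := h'.surj _ hD
    by_cases hv : v ∈ F ∙ e w
    swap
    · obtain ⟨z, z1, z2, z3⟩ := h'.exists_sep (h.idem w) v1 hv
      refine (key z _ (h'.tv z z1) (h'.inD z) (fun e' => z3 (by simp [e'])) z2 ?_).elim
      rw [skew h'.alt, v2, neg_ne_zero] at z3
      simpa [z1] using z3
    obtain ⟨k, rfl⟩ := Submodule.mem_span_singleton.1 hv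
    rw [map_smul] at v2
    have t1 : Tv H (e w) (ψ ∘ₗ e) := v2 ▸ hH.smulR k (h'.tv _ (h.idem w))
    have t2 : Tv H (w - e w) (ψ - ψ ∘ₗ e) := hH.prod3 (ht.of_eq (by simp) (by simp))
      ((h.neg hH ht hu hχ).of_eq (by module) (by module)) t1 (hD' w) (by simp [h.idem])
    refine .inr (.inr ⟨J, h', k, fun e' => hχ (by simp [← v2, e']), v2.symm, hu, w1,
      fun e' => hg (grow_R hH h (hH.subL ht ((sub_eq_zero.1 e').symm ▸ t1)) hw' w1
        ((sub_eq_zero.1 e').symm ▸ hD) h0), t2⟩)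
  by_cases h2 : e w ≠ 0 ∧ ψ - ψ ∘ₗ e ≠ 0
  · obtain ⟨hu, h2⟩ := h2
    by_cases hχ : ψ ∘ₗ e = 0
    · obtain ⟨ξ, a1, a2⟩ := exists_dual_ne h.idem (h.idem w) hu
      obtain ⟨x, x1, x2, x3⟩ := h.ax a1 fun e' => a2 (by simp [e'])
      have a3 : ∀ x, ψ (e x) = 0 := fun x => congr($hχ x)
      exact (hg (grow_L hH h (hH.moveL x3 ht (by rw [← x1, a3]) (by rwa [← a1])) x1 x2 a3 h0)).elim
    · have w1 : e w = w := (sub_eq_zero.1 (not_not.1 fun e' => h1 ⟨hχ, e'⟩)).symm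
      have := hH.smul _ _ (-1) (h.neg hH ht hu hχ)
      rw [w1] at this
      exact (hg (grow_L hH h (hH.ofR hH.two ((ht.addR (this.of_eq (by module) rfl)).of_eq rfl
        (by module))) w1 w0 hD' h2)).elim
  simp only [ne_eq, not_and_or, not_not, sub_eq_zero] at h1 h2
  rcases h1 with h1 | h1 <;> rcases h2 with h2 | h2
  · exact .inr (.inl ⟨h2, fun x => congr($h1 x)⟩)
  · exact (h0 (h2.trans h1)).elim
  · exact (w0 (h1.trans h2)).elim
  · exact .inl ⟨h1.symm, fun x => congr($h2 x).symm⟩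

/-- The symplectic form of the plane of an opposite pair. -/
def jp (α β : Dual F V) : V →ₗ[F] Dual F V := β.smulRight α - α.smulRight β

theorem jp_apply (α β : Dual F V) (y : V) : jp α β y = β y • α - α y • β := rfl

theorem spp_add (hH : MC H) (he : ∀ x, e (e x) = e x) (h1 : ∀ u, J u u = 0) (h2 : ∀ u, InD e (J u))
    (h3 : ∀ ξ, InD e ξ → ∃ u, e u = u ∧ J u = ξ) (h4 : ∀ u, e u = u → J u = 0 → u = 0)
    (h5 : Neg H e) {a b : V} {α β : Dual F V} (ta : Tv H a α) (tb : Tv H b β) (ab : α b ≠ 0)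
    (ba : β a ≠ 0) (ea : e a = 0) (eb : e b = 0) (eα : ∀ x, α (e x) = 0) (eβ : ∀ x, β (e x) = 0)
    {l : F} (l0 : l ≠ 0) (h6 : ∀ x s r, e x = x → Tv H (x + (s • a + r • b))
      (J x + l • ((s * β a) • α - (r * α b) • β))) :
    Spp H (e + pl a α b β) (J + l • jp α β) := by
  have Je : ∀ u, J (e u) = J u := fun u =>
    LinearMap.ext fun x => by rw [skew h1, h2, ← skew h1]
  have Ja : J a = 0 := by rw [← Je, ea, map_zero]
  have Jb : J b = 0 := by rw [← Je, eb, map_zero]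
  have Ja' : ∀ u, J u a = 0 := fun u => by rw [← h2, ea, map_zero]
  have Jb' : ∀ u, J u b = 0 := fun u => by rw [← h2, eb, map_zero]
  have a0 := ta.1
  have b0 := tb.1
  refine ⟨fun x => ?_, fun u => ?_, fun u x => ?_, fun ξ hξ => ?_, fun u hu h0 => ?_,
    fun u hu => ?_, ?_, a, by simp [pl_apply, ea, ba, a0], fun e' => ba (by simp [e'])⟩
  · simp [pl_apply, he, ea, eb, eα, eβ, a0, b0]
    match_scalars <;> field_simp
  · simp [jp_apply, h1, mul_comm]
  · simp only [LinearMap.add_apply, LinearMap.smul_apply, jp_apply, pl_apply, map_add, map_smul,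
      LinearMap.sub_apply, h2 u x, eα, eβ, Ja', Jb', a0, b0, smul_eq_mul]
    field_simp
    ring
  · obtain ⟨u, u1, u2⟩ := h3 (ξ ∘ₗ e) fun x => by simp [he]
    have u3 : α u = 0 := by rw [← u1, eα]
    have u4 : β u = 0 := by rw [← u1, eβ]
    refine ⟨u + ((l * α b * β a)⁻¹ * ξ b) • a - ((l * α b * β a)⁻¹ * ξ a) • b, ?_,
      LinearMap.ext fun x => ?_⟩
    · simp only [LinearMap.add_apply, pl_apply, map_add, map_sub, map_smul, u1, ea, eb, u3, u4, a0,
        b0, smul_eq_mul]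
      match_scalars <;> field_simp <;> ring
    · rw [← hξ x]
      simp only [LinearMap.add_apply, LinearMap.smul_apply, jp_apply, pl_apply, map_add, map_smul,
        map_sub, LinearMap.sub_apply, u2, Ja, Jb, u3, u4, a0, b0, smul_eq_mul,
        LinearMap.comp_apply, LinearMap.zero_apply]
      field_simp
      ring
  · have e1 := congr($h0 a)
    have e2 := congr($h0 b)
    simp [jp_apply, Ja', Jb', a0, b0, l0, ab, ba] at e1 e2
    rw [LinearMap.add_apply, pl_apply, e1, e2] at hu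
    simp only [mul_zero, zero_smul, add_zero] at hu
    exact h4 u hu (by simpa [jp_apply, e1, e2] using h0)
  · refine (h6 (e u) _ _ (he u)).of_eq (hu.symm.trans (congrArg _ (pl_apply _ _ _ _ _))) ?_
    rw [Je, LinearMap.add_apply, LinearMap.smul_apply, jp_apply]
    congr 4 <;> field_simp
  · obtain ⟨g, hg, e1⟩ := h5
    obtain ⟨g', hg', e2⟩ := hH.neg_pl ta tb ab ba
    refine ⟨g * g', mul_mem hg hg', fun x => ?_⟩
    simp only [LinearEquiv.mul_apply, e1, e2, LinearMap.add_apply, pl_apply, map_sub, map_smul,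
      map_add, ea, eb]
    module

theorem spp_plane (hH : MC H) {a b : V} {α β : Dual F V} (ta : Tv H a α) (tb : Tv H b β)
    (ab : α b ≠ 0) (ba : β a ≠ 0) : Pc H (pl a α b β) := by
  have := spp_add (e := 0) (J := 0) hH (by simp) (by simp) (fun _ _ => rfl)
    (fun ξ hξ => ⟨0, rfl, LinearMap.ext fun x => by simp [← hξ x]⟩) (fun u hu _ => hu.symm)
    ⟨1, one_mem _, by simp⟩ ta tb ab ba rfl rfl (by simp) (by simp) one_ne_zero
    fun x s r hx => by simpa [show x = 0 from hx.symm] using hH.plane ta tb ab s r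
  rw [zero_add] at this
  exact .inr ⟨_, this⟩

theorem grow_sp (hH : MC H) (h : Spp H e J) {a b u : V} {α β : Dual F V} (ta : Tv H a α)
    (tb : Tv H b β) (ab : α b ≠ 0) (ba : β a ≠ 0) (ea : e a = 0) (eb : e b = 0)
    (eα : ∀ x, α (e x) = 0) (eβ : ∀ x, β (e x) = 0) (hu : e u = u) (u0 : u ≠ 0) {k : F}
    (k0 : k ≠ 0) (ht : Tv H (u + a) (k • J u + α)) : Grow H e := by
  have a0 := ta.1
  have b0 := tb.1
  have Ja : J a = 0 := by rw [← h.J_e, ea, map_zero]
  have Jb : J b = 0 := by rw [← h.J_e, eb, map_zero]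
  have Ja' : ∀ u, J u a = 0 := fun u => by rw [← h.inD, ea, map_zero]
  have eα' : ∀ x, e x = x → α x = 0 := fun x hx => by rw [← hx, eα]
  have eβ' : ∀ x, e x = x → β x = 0 := fun x hx => by rw [← hx, eβ]
  obtain ⟨l, hl⟩ : ∃ l, l = (k * β a)⁻¹ := ⟨_, rfl⟩
  have l0 : l ≠ 0 := by simp [hl, k0, ba]
  let K := J + l • jp α β
  have hK : ∀ y, K y = J y + l • (β y • α - α y • β) := fun y => rfl
  have alt : ∀ y, K y y = 0 := fun y => by simp [hK, h.alt, mul_comm]
  have g1 : ∀ y (s : F), Tv H y (K y) → Tv H (s • y) (K (s • y)) := fun y s q =>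
    map_smul K s y ▸ hH.smulR s (hH.smul _ _ s q)
  have g2 : ∀ y m (s : F), Tv H y (K y) → Tv H m (K m) → K m y ≠ 0 →
      Tv H (y + s • m) (K (y + s • m)) := fun y m s q q' h0 => by
    refine ((hH.smul _ _ (s / K m y) q').cj q).of_eq (by simp [smul_smul, mul_div_cancel₀ _ h0]) ?_
    rw [map_add, map_smul, map_smul, skew alt y m, smul_eq_mul]
    match_scalars <;> field_simp
  have g3 : ∀ x, e x = x → Tv H x (K x) := fun x hx => by
    simpa [hK, eα' x hx, eβ' x hx] using h.tv x hx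
  have g4 : ∀ s r : F, Tv H (s • a + r • b) (K (s • a + r • b)) := fun s r => by
    simpa [hK, Ja, Jb, a0, b0] using hH.smulR l (hH.plane ta tb ab s r)
  have g5 : ∀ x, e x = x → x ≠ 0 → Tv H (x + a) (K (x + a)) := fun x hx x0 => by
    refine h.trans (Q := fun x => Tv H (x + a) (K (x + a))) (fun x m hx hm h1 q => ?_) hu u0 hx x0
      (hH.ofR k0 (ht.of_eq rfl ?_))
    · have := g2 _ m 1 q (g3 m hm) (by simpa [hK, eα' m hm, eβ' m hm, Ja'] using h1)
      rwa [one_smul, add_right_comm] at this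
    · simp only [hK, map_add, Ja, eα' u hu, eβ' u hu, a0, hl]
      match_scalars <;> field_simp <;> ring
  have g6 : ∀ x (r : F), e x = x → x ≠ 0 → Tv H (x + a + r • b) (K (x + a + r • b)) :=
    fun x r hx x0 => g2 _ b r (g5 x hx x0) (by simpa using g4 0 1)
      (by simp [hK, Jb, b0, eβ' x hx, l0, ab, ba])
  have g7 : ∀ x (s r : F), e x = x → Tv H (x + (s • a + r • b)) (K (x + (s • a + r • b))) :=
    fun x s r hx => by
      by_cases x0 : x = 0
      · simpa [x0] using g4 s r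
      by_cases s0 : s = 0
      · by_cases r0 : r = 0
        · simpa [s0, r0] using g3 x hx
        have := g2 _ a (-1) (g6 x r hx x0) (by simpa using g4 1 0)
          (by simp [hK, Ja, a0, eα' x hx, l0, ab, ba, r0])
        rwa [show x + a + r • b + (-1 : F) • a = x + (s • a + r • b) by rw [s0]; module] at this
      have := g1 _ s (g6 (s⁻¹ • x) (s⁻¹ * r) (by simp [hx]) (by simp [s0, x0]))
      rwa [show s • (s⁻¹ • x + a + (s⁻¹ * r) • b) = x + (s • a + r • b) by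
        match_scalars <;> field_simp] at this
  refine ⟨_, .inr ⟨_, spp_add hH h.idem h.alt h.inD h.surj h.inj h.neg ta tb ab ba ea eb eα eβ l0
    fun x s r hx => (g7 x s r hx).of_eq rfl ?_⟩, fun x => by simp [pl_apply, h.idem, eα, eβ],
    fun x => by simp [pl_apply, h.idem, ea, eb], a, by simp [pl_apply, ea, a0, ba],
    fun e' => ba (by rw [← e', eβ])⟩
  simp [hK, Ja, Jb, a0, b0, eα' x hx, eβ' x hx]

/-- Every transvection lies in the piece or in its complement. -/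
def Cl (H : Subgroup (V ≃ₗ[F] V)) (e : End F V) : Prop :=
  ∀ w ψ, Tv H w ψ → w ≠ 0 → ψ ≠ 0 → (e w = w ∧ InD e ψ) ∨ (e w = 0 ∧ ∀ x, ψ (e x) = 0)

theorem cl_of_not_grow [FiniteDimensional F V] (hH : MC H) (h : Pc H e) (hg : ¬ Grow H e) :
    Cl H e := fun w ψ ht w0 h0 => by
  obtain h1 | h1 | ⟨J, hJ, k, k0, h1, h2, h3, h4, h5⟩ := trich hH h hg ht w0 h0
  · exact .inl h1
  · exact .inr h1
  obtain ⟨y, η, t1, t2, t3⟩ := hH.opp _ _ h5 h3 h4
  have a1 : ∀ x, (ψ - ψ ∘ₗ e) (e x) = 0 := fun x => by simp [h.idem]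
  have a2 : e (w - e w) = 0 := by simp [h.idem]
  have t4 : Tv H (y - e y) (η - η ∘ₗ e) := by
    obtain h6 | h6 | ⟨-, -, -, -, -, -, -, -, h6⟩ := trich hH h hg t1 (fun e' => t2 (by simp [e']))
      fun e' => t3 (by simp [e'])
    · exact (t2 (by rw [← h6.1, a1])).elim
    · simpa [h6.1, show η ∘ₗ e = 0 from LinearMap.ext h6.2] using t1
    · exact h6
  exact (hg (grow_sp hH hJ h5 t4 (by rwa [map_sub, a1, sub_zero])
    (by rwa [LinearMap.sub_apply, LinearMap.comp_apply, a2, map_zero, sub_zero]) a2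
    (by simp [h.idem]) a1 (fun x => by simp [h.idem]) (h.idem w) h2 k0
    (ht.of_eq (by simp) (by simp [← h1])))).elim

theorem exists_cl [FiniteDimensional F V] (hH : MC H) {w : V} {ψ : Dual F V} (ht : Tv H w ψ)
    (w0 : w ≠ 0) (h0 : ψ ≠ 0) : ∃ e, Pc H e ∧ Cl H e ∧ e w = w ∧ InD e ψ := by
  classical
  obtain ⟨y, η, t1, t2, t3⟩ := hH.opp _ _ ht w0 h0
  have hex : ∃ n, ∃ e : End F V, Pc H e ∧ e w = w ∧ InD e ψ ∧
      finrank F V = finrank F (LinearMap.range e) + n :=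
    let ⟨n, hn⟩ := Nat.exists_eq_add_of_le (Submodule.finrank_le (LinearMap.range (pl w ψ y η)))
    ⟨n, _, spp_plane hH ht t1 t2 t3, by simp [pl_apply, t3, ht.1],
      fun x => by simp [pl_apply, ht.1, mul_right_comm _ (ψ x), t2], hn⟩
  obtain ⟨e, h1, h2, h3, h4⟩ := Nat.find_spec hex
  refine ⟨e, h1, cl_of_not_grow hH h1 fun ⟨e₂, a1, a2, a3, x, a4, a5⟩ => ?_, h2, h3⟩
  have := Submodule.finrank_lt_finrank_of_lt (show LinearMap.range e < LinearMap.range e₂ from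
    lt_of_le_of_ne (by rintro _ ⟨x, rfl⟩; exact ⟨_, a2 x⟩) fun e' => by
      obtain ⟨z, hz⟩ : x ∈ LinearMap.range e := e' ▸ ⟨_, a4⟩
      exact a5 (by rw [← hz, h1.idem]))
  obtain ⟨n, hn⟩ := Nat.exists_eq_add_of_le (Submodule.finrank_le (LinearMap.range e₂))
  exact Nat.find_min hex (m := n) (by omega) ⟨e₂, a1, by rw [← h2, a2],
    fun z => by rw [← h3, a3, h3], hn⟩

theorem le_or_orth {e' : End F V} (h : Pc H e) (h' : Cl H e') :
    ((∀ x, e' (e x) = e x) ∨ ∀ x, e' (e x) = 0) ∧ ((∀ x, e (e' x) = e x) ∨ ∀ x, e (e' x) = 0) := by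
  constructor
  · have key : ∀ x, e' (e x) = e x ∨ e' (e x) = 0 := fun x => by
      by_cases x0 : e x = 0
      · simp [x0]
      obtain ⟨ξ, -, a2, a3⟩ := h.cen (h.idem x) x0
      exact (h' _ _ a3 x0 a2).imp (·.1) (·.1)
    by_contra! hc
    obtain ⟨⟨x, hx⟩, y, hy⟩ := hc
    have h1 := (key x).resolve_left hx
    have h2 := (key y).resolve_right hy
    rcases key (x + y) with h3 | h3 <;> simp only [map_add, h1, h2, zero_add] at h3
    · exact hx (h1.trans (by simpa using h3 : e x = 0).symm)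
    · exact hy (h2.trans h3)
  · have key : ∀ ξ : Dual F V, (∀ x, ξ (e (e' x)) = ξ (e x)) ∨ ∀ x, ξ (e (e' x)) = 0 := fun ξ => by
      by_cases x0 : ξ ∘ₗ e = 0
      · exact .inr fun x => congr($x0 _)
      obtain ⟨x, -, a2, a3⟩ := h.ax (ξ := ξ ∘ₗ e) (fun x => by simp [h.idem]) x0
      exact (h' _ _ a3 a2 x0).imp (·.2) (·.2)
    by_contra! hc
    obtain ⟨⟨x, hx⟩, y, hy⟩ := hc
    obtain ⟨ξ, hξ⟩ := not_forall.1 (mt (Module.forall_dual_apply_eq_zero_iff F _).1
      (sub_ne_zero.2 hx))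
    obtain ⟨η, hη⟩ := not_forall.1 (mt (Module.forall_dual_apply_eq_zero_iff F _).1 hy)
    rw [map_sub, sub_eq_zero] at hξ
    have h1 := (key ξ).resolve_left fun e' => hξ (e' x)
    have h2 := (key η).resolve_right fun e' => hη (e' y)
    rcases key (ξ + η) with h3 | h3
    · exact hξ (by simpa [h2] using h3 x)
    · exact hη (by simpa [h1] using h3 y)

theorem orth_of_ne {e' : End F V} (h : Pc H e) (hc : Cl H e) (h' : Pc H e') (hc' : Cl H e')
    (hne : e ≠ e') (x : V) : e' (e x) = 0 := by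
  by_contra hx
  have h1 := (le_or_orth h hc').1.resolve_right fun e' => hx (e' x)
  have h2 := (le_or_orth h' hc).2.resolve_right fun e' => hx (e' x)
  exact hne (LinearMap.ext fun x => (h1 x).symm.trans (h2 x))

end CF.Geom.McL
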