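/-
McLaughlin's theorem: the decomposition.
-/
import Cfsg.Agent.Geom.McL2
import Cfsg.Agent.Geom.SpGen
import Cfsg.Agent.Invol.BaerSuzuki

set_option autoImplicit false
set_option linter.unusedSectionVars false

namespace CF.Geom.McL

open Module

variable {F V : Type*} [Field F] [AddCommGroup V] [Module F V] {H : Subgroup (V ≃ₗ[F] V)}

/-- The elements of `H` fixing the kernel of `e`. -/
def KE (H : Subgroup (V ≃ₗ[F] V)) (e : End F V) : Subgroup (V ≃ₗ[F] V) where
  carrier := {g | g ∈ H ∧ ∀ x, e x = 0 → g x = x}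
  one_mem' := ⟨one_mem _, fun _ _ => rfl⟩
  mul_mem' := fun ha hb => ⟨mul_mem ha.1 hb.1, fun x hx => by simp [ha.2 x hx, hb.2 x hx]⟩
  inv_mem' := fun {a} ha => ⟨inv_mem ha.1, fun x hx => by
    rw [← ha.2 x hx, inv_apply_apply, ha.2 x hx]⟩

/-- Restriction to the image of an idempotent commuting with the group. -/
def res {e : End F V} (hc : ∀ g ∈ H, ∀ x, e (g x) = g (e x)) :
    H →* (LinearMap.range e ≃ₗ[F] LinearMap.range e) where
  toFun g :=
    { toFun := fun v => ⟨g.1 v, by obtain ⟨_, x, rfl⟩ := v; exact ⟨_, hc _ g.2 x⟩⟩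
      invFun := fun v => ⟨g.1⁻¹ v, by obtain ⟨_, x, rfl⟩ := v; exact ⟨_, hc _ (inv_mem g.2) x⟩⟩
      map_add' := fun _ _ => Subtype.ext (map_add _ _ _)
      map_smul' := fun _ _ => Subtype.ext (map_smul _ _ _)
      left_inv := fun _ => Subtype.ext (inv_apply_apply _ _)
      right_inv := fun _ => Subtype.ext (apply_inv_apply _ _) }
  map_one' := rfl
  map_mul' _ _ := rfl

theorem res_apply {e : End F V} (hc : ∀ g ∈ H, ∀ x, e (g x) = g (e x)) (g : H)
    (v : LinearMap.range e) : (res hc g v : V) = g.1 v := rfl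

section

variable {T : Set (V ≃ₗ[F] V)} (hT : H = Subgroup.closure T)
  (hv : ∀ t ∈ T, ∃ (v : V) (φ : Dual F V), φ v = 0 ∧ ∀ x, t x = x + φ x • v) {e : End F V}
include hT hv

theorem ind {X : Subgroup (V ≃ₗ[F] V)} (h : ∀ g v φ, Tv H v φ → v ≠ 0 → φ ≠ 0 → g ∈ H →
    (∀ x, g x = x + φ x • v) → g ∈ X) : H ≤ X := by
  rw [hT, Subgroup.closure_le]
  intro t ht
  obtain ⟨v, φ, h1, h2⟩ := hv t ht
  have h3 : t ∈ H := hT ▸ Subgroup.subset_closure ht
  by_cases h4 : v = 0 ∨ φ = 0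
  · rw [show t = 1 from LinearEquiv.ext fun x => by rcases h4 with h | h <;> simp [h2, h]]
    exact one_mem _
  push Not at h4
  exact h t v φ ⟨h1, t, h3, h2⟩ h4.1 h4.2 h3 h2

theorem Cl.comm (h : Cl H e) : ∀ g ∈ H, ∀ x, e (g x) = g (e x) := by
  let X : Subgroup (V ≃ₗ[F] V) :=
    { carrier := {g | ∀ x, e (g x) = g (e x)}
      one_mem' := fun _ => rfl
      mul_mem' := fun ha hb x => by simp [ha _, hb _]
      inv_mem' := fun {a} ha x => a.injective (by rw [← ha, apply_inv_apply, apply_inv_apply]) }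
  refine ind hT hv (X := X) fun g v φ h1 h2 h3 _ h4 x => ?_
  rcases h v φ h1 h2 h3 with h5 | h5
  · simp [h4, h5.1, h5.2 x]
  · simp [h4, h5.1, h5.2]

theorem range_res (he : ∀ x, e (e x) = e x) (h : Cl H e) (hc : ∀ g ∈ H, ∀ x, e (g x) = g (e x))
    {X : Subgroup (LinearMap.range e ≃ₗ[F] LinearMap.range e)}
    (h1 : ∀ (u : LinearMap.range e) (ξ : Dual F V), Tv H u ξ → (u : V) ≠ 0 → InD e ξ →
      ∀ h0 : (ξ ∘ₗ (LinearMap.range e).subtype) u = 0, tvE h0 ∈ X) (g : H) : res hc g ∈ X := by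
  obtain ⟨g', h2, h3⟩ := ind hT hv (X := (X.comap (res hc)).map H.subtype)
    (fun g v φ a1 a2 a3 a4 a5 => ⟨⟨g, a4⟩, by
      rcases h v φ a1 a2 a3 with h5 | h5
      · have := h1 ⟨v, v, h5.1⟩ φ a1 a2 h5.2 a1.1
        change res hc ⟨g, a4⟩ ∈ X
        convert this
        exact LinearEquiv.ext fun x => Subtype.ext (a5 x)
      · change res hc _ ∈ X
        rw [show res hc ⟨g, a4⟩ = 1 from LinearEquiv.ext fun ⟨_, x, rfl⟩ => Subtype.ext (by
          simp [res_apply, a5, h5.2])]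
        exact one_mem _, rfl⟩) g.2
  rwa [← Subtype.ext h3]

end

theorem tv_mem_range {e : End F V} (he : ∀ x, e (e x) = e x) (hc : ∀ g ∈ H, ∀ x, e (g x) = g (e x))
    (hle : KE H e ≤ H) {u : LinearMap.range e} {φ : Dual F (LinearMap.range e)} (h0 : φ u = 0)
    (h : Tv H u (φ ∘ₗ e.rangeRestrict)) :
    tvE h0 ∈ ((res hc).comp (Subgroup.inclusion hle)).range := by
  obtain ⟨-, g, hg, e1⟩ := h
  refine ⟨⟨g, hg, fun x hx => ?_⟩, LinearEquiv.ext fun ⟨_, x, rfl⟩ => Subtype.ext ?_⟩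
  · rw [e1, LinearMap.comp_apply, show e.rangeRestrict x = 0 from Subtype.ext hx]; simp
  · refine (e1 _).trans ?_
    rw [LinearMap.comp_apply, show e.rangeRestrict (e x) = ⟨e x, x, rfl⟩ from Subtype.ext (he x)]
    rfl

theorem range_type [FiniteDimensional F V] (hH : MC H) {T : Set (V ≃ₗ[F] V)}
    (hT : H = Subgroup.closure T)
    (hv : ∀ t ∈ T, ∃ (v : V) (φ : Dual F V), φ v = 0 ∧ ∀ x, t x = x + φ x • v) {e : End F V}
    (h : e = 0 ∨ Pc H e) (hl : Cl H e) :
    ∃ ρ : KE H e →* (LinearMap.range e ≃ₗ[F] LinearMap.range e),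
      (∀ (g : KE H e) (v : LinearMap.range e), (ρ g v : V) = g.1 v) ∧
      ((ρ.range : Set _) = {f : LinearMap.range e ≃ₗ[F] LinearMap.range e |
          LinearMap.det (f : LinearMap.range e →ₗ[F] LinearMap.range e) = 1} ∨
        ∃ B : LinearMap.BilinForm F (LinearMap.range e), B.IsAlt ∧ B.Nondegenerate ∧
          (ρ.range : Set _) = {f : LinearMap.range e ≃ₗ[F] LinearMap.range e |
            ∀ x y, B (f x) (f y) = B x y}) := by
  have he : ∀ x, e (e x) = e x := h.elim (fun h x => by simp [h]) Pc.idem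
  have hc := hl.comm hT hv
  have hle : KE H e ≤ H := fun _ h => h.1
  have hu : ∀ u : LinearMap.range e, e u = u := fun ⟨_, x, rfl⟩ => he x
  have hr : ∀ u : LinearMap.range e, e.rangeRestrict u = u := fun u => Subtype.ext (hu u)
  have hD : ∀ φ : Dual F (LinearMap.range e), InD e (φ ∘ₗ e.rangeRestrict) := fun φ x =>
    congrArg φ (Subtype.ext (he x))
  refine ⟨(res hc).comp (Subgroup.inclusion hle), fun _ _ => rfl, ?_⟩
  by_cases hall : ∀ u ξ, e u = u → InD e ξ → ξ u = 0 → Tv H u ξ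
  · refine .inl (Set.ext fun f => ⟨?_, fun hf => SLG_le_of_tvE (fun φ u h0 => tv_mem_range he hc hle
      h0 (hall _ _ (hu u) (hD φ) (by simp [hr, h0]))) (mem_SLG.2 hf)⟩)
    rintro ⟨g, rfl⟩
    exact mem_SLG.1 (range_res hT hv he hl hc (fun _ _ _ _ _ _ => tvE_mem_SLG _) _)
  obtain rfl | h | ⟨J, h⟩ := h
  · exact (hall fun u ξ h _ _ => by rw [← h]; exact Tv.zero_left _).elim
  · exact (hall h.all).elim
  let B : LinearMap.BilinForm F (LinearMap.range e) :=
    J.compl₁₂ (LinearMap.range e).subtype (LinearMap.range e).subtype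
  have hB : ∀ x y, B x y = J x y := fun _ _ => rfl
  have hA : B.IsAlt := fun x => h.alt x
  have hN : ∀ x, (∀ y, B x y = 0) → x = 0 := fun x hx => Subtype.ext (h.inj x (hu x)
    (LinearMap.ext fun y => (h.inD x y).symm.trans (hx ⟨_, y, rfl⟩)))
  have hN' : B.Nondegenerate := ⟨hN, fun x hx => hN x fun y => by rw [← hA.neg_eq, hx, neg_zero]⟩
  refine .inr ⟨B, hA, hN', Set.ext fun f => ⟨?_, fun hf => ?_⟩⟩
  · rintro ⟨g, rfl⟩
    refine mem_SpG.1 (range_res hT hv he hl hc (fun u ξ h1 h2 h3 h0 => ?_) _)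
    obtain ⟨v, v1, rfl⟩ := h.surj ξ h3
    obtain ⟨c, rfl⟩ := Submodule.mem_span_singleton.1 (by_contra fun hv =>
      hall (h.all hH (hu u) h2 v1 hv h1) : v ∈ F ∙ (u : V))
    convert (spTrans hA u (-c)).2
    refine LinearEquiv.ext fun x => ?_
    rw [spTrans_apply, tvE_apply, hB, skew h.alt]
    simp
  · have : Subgroup.closure {g : SpG B | ∃ v c, g = spTrans hA v c} ≤
        (((res hc).comp (Subgroup.inclusion hle)).range).subgroupOf (SpG B) := by
      rw [Subgroup.closure_le]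
      rintro _ ⟨v, c, rfl⟩
      exact tv_mem_range he hc hle (u := v) (φ := c • B.flip v) (by simp [hA.self_eq_zero])
        ((hH.smulR (-c) (h.tv v (hu v))).of_eq rfl (LinearMap.ext fun x => by
          simp [hB, h.J_e, skew h.alt x v]))
    rw [closure_spTrans hN' hA] at this
    exact this (Subgroup.mem_top ⟨f, mem_SpG.2 hf⟩)

theorem decomp [Finite V] [FiniteDimensional F V] (hH : MC H) {T : Set (V ≃ₗ[F] V)}
    (hT : H = Subgroup.closure T)
    (hv : ∀ t ∈ T, ∃ (v : V) (φ : Dual F V), φ v = 0 ∧ ∀ x, t x = x + φ x • v) :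
    ∃ (n : ℕ) (W : Fin (n + 1) → Submodule F V) (K : Fin n → Subgroup (V ≃ₗ[F] V)),
      1 ≤ n ∧ DirectSum.IsInternal W ∧ (∀ h ∈ H, ∀ i, (W i).map (h : V →ₗ[F] V) = W i) ∧
      (∀ j, K j ≤ H ∧ ((K j).subgroupOf H).Normal) ∧ ⨆ j, K j = H ∧
      (∀ j, K j ⊓ (⨆ j' ∈ {j' : Fin n | j' ≠ j}, K j') = ⊥) ∧
      (∀ j j', j ≠ j' → ∀ a ∈ K j, ∀ b ∈ K j', a * b = b * a) ∧
      (∀ j, ∀ h ∈ K j, ∀ i : Fin (n + 1), i ≠ j.succ → ∀ v ∈ W i, h v = v) ∧
      (∀ j, ∃ ρ : K j →* (W j.succ ≃ₗ[F] W j.succ),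
        (∀ (h : K j) (v : W j.succ), ((ρ h v : W j.succ) : V) = (h : V ≃ₗ[F] V) (v : V)) ∧
        ((ρ.range : Set (W j.succ ≃ₗ[F] W j.succ)) = {f : W j.succ ≃ₗ[F] W j.succ |
            LinearMap.det (f : W j.succ →ₗ[F] W j.succ) = 1} ∨
          ∃ B : LinearMap.BilinForm F (W j.succ), B.IsAlt ∧ B.Nondegenerate ∧
            (ρ.range : Set (W j.succ ≃ₗ[F] W j.succ)) =
              {f : W j.succ ≃ₗ[F] W j.succ | ∀ x y, B (f x) (f y) = B x y})) := by
  classical
  have : Finite (End F V) := Finite.of_injective _ DFunLike.coe_injective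
  let E := {e : End F V // (e = 0 ∨ Pc H e) ∧ Cl H e}
  obtain ⟨n, ⟨ε⟩⟩ := Finite.exists_equiv_fin E
  let e : Fin n → End F V := fun j => (ε.symm j).1
  have h1 : ∀ j, e j = 0 ∨ Pc H (e j) := fun j => (ε.symm j).2.1
  have h2 : ∀ j, Cl H (e j) := fun j => (ε.symm j).2.2
  have he : ∀ j x, e j (e j x) = e j x := fun j => (h1 j).elim (fun h x => by simp [h]) Pc.idem
  have ho : ∀ j j', j ≠ j' → ∀ x, e j' (e j x) = 0 := fun j j' hj x => by
    rcases h1 j with h | h
    · simp [h]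
    rcases h1 j' with h' | h'
    · simp [h']
    exact orth_of_ne h (h2 j) h' (h2 j') (fun e' => hj (ε.symm.injective (Subtype.ext e'))) x
  have hc := fun j => (h2 j).comm hT hv
  let π : Fin (n + 1) → End F V := Fin.cons (1 - ∑ j, e j) e
  have p0 : ∀ x, π 0 x = x - ∑ j, e j x := fun x => by simp [π]
  have p1 : ∀ j x, e j (π 0 x) = 0 := fun j x => by
    rw [p0, map_sub, map_sum, Finset.sum_eq_single j (fun i _ hi => ho i j hi x) (by simp), he,
      sub_self]
  have p2 : ∀ j x, π 0 (e j x) = 0 := fun j x => by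
    rw [p0, Finset.sum_eq_single j (fun i _ hi => ho j i hi.symm x) (by simp), he, sub_self]
  have q1 : ∀ i x, π i (π i x) = π i x := Fin.cases (fun x => by rw [p0 (π 0 x)]; simp [p1]) he
  have q2 : ∀ i i', i ≠ i' → ∀ x, π i' (π i x) = 0 := Fin.cases
    (Fin.cases (fun h => (h rfl).elim) fun j _ => p1 j)
    fun j => Fin.cases (fun _ => p2 j) fun j' h => ho j j' fun e' => h (congrArg _ e')
  have q3 : ∀ x, ∑ i, π i x = x := fun x => by rw [Fin.sum_univ_succ, p0]; simp [π]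
  have q4 : ∀ g ∈ H, ∀ i x, π i (g x) = g (π i x) := fun g hg => Fin.cases
    (fun x => by simp [p0, hc _ g hg]) fun j => hc j g hg
  have ext : ∀ j (a b : V ≃ₗ[F] V), (∀ x, a (e j x) = b (e j x)) → (∀ x, e j x = 0 → a x = b x) →
      a = b := fun j a b h3 h4 => LinearEquiv.ext fun x => by
    have := h4 (x - e j x) (by simp [he])
    rwa [map_sub, map_sub, h3, sub_left_inj] at this
  refine ⟨n, fun i => LinearMap.range (π i), fun j => KE H (e j),
    (ε ⟨0, .inl rfl, fun _ _ _ _ _ => .inr ⟨rfl, by simp⟩⟩).pos, ?_, fun g hg i => ?_,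
    fun j => ⟨fun _ h => h.1, ⟨fun a ha g => ⟨(g * a * g⁻¹).2, fun x hx => ?_⟩⟩⟩,
    le_antisymm (iSup_le fun _ _ h => h.1) (ind hT hv fun g v φ a1 a2 a3 a4 a5 => ?_),
    fun j => eq_bot_iff.2 fun g hg => ?_, fun j j' hj a ha b hb => ext j _ _ (fun x => ?_)
      fun x hx => ?_, ?_, fun j => range_type hH hT hv (h1 j) (h2 j)⟩
  · refine DirectSum.isInternal_submodule_of_iSupIndep_of_iSup_eq_top
      (fun i => Submodule.disjoint_def.2 ?_) (eq_top_iff.2 fun x _ => q3 x ▸ sum_mem fun i _ =>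
        Submodule.mem_iSup_of_mem i ⟨x, rfl⟩)
    rintro _ ⟨x, rfl⟩ hx
    have : (⨆ j, ⨆ (_ : j ≠ i), LinearMap.range (π j)) ≤ LinearMap.ker (π i) :=
      iSup₂_le fun j hj => by rintro _ ⟨y, rfl⟩; exact q2 j i hj y
    exact (q1 i x).symm.trans (this hx)
  · refine le_antisymm ?_ ?_
    · rintro _ ⟨_, ⟨x, rfl⟩, rfl⟩
      exact ⟨_, q4 g hg i x⟩
    · rintro _ ⟨x, rfl⟩
      exact ⟨_, ⟨g⁻¹ x, rfl⟩, (q4 g hg i _).symm.trans (by rw [apply_inv_apply])⟩
  · change g.1 (a.1 (g.1⁻¹ x)) = x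
    rw [show a.1 (g.1⁻¹ x) = _ from ha.2 _ (by rw [hc j _ (inv_mem g.2), hx, map_zero]),
      apply_inv_apply]
  · obtain ⟨e', b1, b2, b3, b4⟩ := exists_cl hH a1 a2 a3
    refine Subgroup.mem_iSup_of_mem (ε ⟨e', .inr b1, b2⟩) ⟨a4, fun x hx => ?_⟩
    simp only [e, Equiv.symm_apply_apply] at hx
    rw [a5, ← b4, hx]; simp
  · let X : Subgroup (V ≃ₗ[F] V) :=
      { carrier := {g | ∀ x, g (e j x) = e j x}
        one_mem' := fun _ => rfl
        mul_mem' := fun ha hb x => by simp [ha _, hb _]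
        inv_mem' := fun {a} ha x => by rw [← ha x, inv_apply_apply, ha x] }
    have : (⨆ j' ∈ {j' : Fin n | j' ≠ j}, KE H (e j')) ≤ X :=
      iSup₂_le fun j' hj g hg x => hg.2 _ (ho j j' (Ne.symm hj) x)
    exact ext j g 1 (this hg.2) hg.1.2
  · rw [LinearEquiv.mul_apply, LinearEquiv.mul_apply, hb.2 _ (ho j j' hj x), ← hc j a ha.1,
      hb.2 _ (ho j j' hj _)]
  · rw [LinearEquiv.mul_apply, LinearEquiv.mul_apply, ha.2 x hx,
      ha.2 _ (by rw [hc j b hb.1, hx, map_zero])]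
  · rintro j g hg i hi _ ⟨x, rfl⟩
    exact hg.2 _ (q2 i j.succ hi x)

section prime

variable {p : ℕ} [Fact p.Prime] {V : Type*} [AddCommGroup V] [Module (ZMod p) V] [Finite V]

theorem exists_tv {t : V ≃ₗ[ZMod p] V} (h1 : t ^ p = 1) (h2 : finrank (ZMod p)
    (LinearMap.ker ((t : V →ₗ[ZMod p] V) - LinearMap.id)) + 1 = finrank (ZMod p) V) :
    ∃ (v : V) (φ : Dual (ZMod p) V), φ v = 0 ∧ ∀ x, t x = x + φ x • v := by
  have h3 := LinearMap.finrank_range_add_finrank_ker ((t : V →ₗ[ZMod p] V) - LinearMap.id)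
  obtain ⟨⟨v, hv⟩, v0, h4⟩ := finrank_eq_one_iff'.1 (show finrank (ZMod p) (LinearMap.range
    ((t : V →ₗ[ZMod p] V) - LinearMap.id)) = 1 by omega)
  have v1 : v ≠ 0 := fun e => v0 (Subtype.ext e)
  obtain ⟨ψ, h5, -⟩ := exists_dual_one (F := ZMod p) (W := ⊥) (v := v) (by simpa using v1)
  have h6 : ∀ x, t x = x + (ψ ∘ₗ ((t : V →ₗ[ZMod p] V) - LinearMap.id)) x • v := fun x => by
    obtain ⟨c, hc⟩ := h4 ⟨_, x, rfl⟩
    have : c • v = t x - x := congrArg Subtype.val hc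
    rw [LinearMap.comp_apply, LinearMap.sub_apply, LinearMap.id_apply, LinearEquiv.coe_coe, ← this,
      map_smul, h5, smul_eq_mul, mul_one, this, add_sub_cancel]
  refine ⟨v, _, ?_, h6⟩
  generalize ψ ∘ₗ ((t : V →ₗ[ZMod p] V) - LinearMap.id) = φ at h6
  have h7 : ∀ k : ℕ, (t ^ k) v = (1 + φ v) ^ k • v := fun k => by
    induction k with
    | zero => simp
    | succ k ih => rw [pow_succ', LinearEquiv.mul_apply, ih, map_smul, h6, pow_succ]; module
  have := h7 p
  rw [h1, ZMod.pow_card, add_smul, one_smul] at this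
  simpa [v1] using this

/-- The stability group of a flag of length three. -/
def flagG (A B : Submodule (ZMod p) V) : Subgroup (V ≃ₗ[ZMod p] V) where
  carrier := {g | B ≤ A → (∀ x, g x - x ∈ A) ∧ (∀ x ∈ A, g x - x ∈ B) ∧ ∀ x ∈ B, g x = x}
  one_mem' := by simp
  mul_mem' := fun {a b} ha hb h => by
    obtain ⟨a1, a2, a3⟩ := ha h
    obtain ⟨b1, b2, b3⟩ := hb h
    refine ⟨fun x => ?_, fun x hx => ?_, fun x hx => by simp [a3 x hx, b3 x hx]⟩
    · simpa using add_mem (a1 (b x)) (b1 x)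
    · simpa using add_mem (a2 (b x) (by simpa using add_mem (b1 x) hx)) (b2 x hx)
  inv_mem' := fun {a} ha h => by
    obtain ⟨a1, a2, a3⟩ := ha h
    refine ⟨fun x => ?_, fun x hx => ?_, fun x hx => by rw [← a3 x hx, inv_apply_apply, a3 x hx]⟩
    · simpa [apply_inv_apply] using neg_mem (a1 (a⁻¹ x))
    · simpa [apply_inv_apply] using neg_mem (a2 (a⁻¹ x)
        (by simpa [apply_inv_apply] using sub_mem hx (a1 (a⁻¹ x))))

theorem pow_eq_one_of_flag (hp : Odd p) {A B : Submodule (ZMod p) V} (h : B ≤ A)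
    {g : V ≃ₗ[ZMod p] V} (hg : g ∈ flagG A B) : g ^ p = 1 := by
  obtain ⟨a1, a2, a3⟩ := hg h
  rcases subsingleton_or_nontrivial V with hV | hV
  · exact Subsingleton.elim _ _
  have : CharP (End (ZMod p) V) p := charP_of_injective_algebraMap (algebraMap (ZMod p) _).injective p
  let N : End (ZMod p) V := (g : End (ZMod p) V) - 1
  have h3 : N ^ 3 = 0 := LinearMap.ext fun x => sub_eq_zero.2 (a3 _ (a2 _ (a1 x)))
  have h4 : 3 ≤ p := by
    have := (Fact.out : p.Prime).two_le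
    obtain ⟨k, hk⟩ := hp
    omega
  have h5 := add_pow_char_of_commute p (Commute.one_right N)
  rw [pow_eq_zero_of_le h4 h3, sub_add_cancel, zero_add, one_pow] at h5
  refine LinearEquiv.ext fun x => ?_
  rw [LinearEquiv.coe_pow, ← LinearEquiv.coe_coe, ← Module.End.coe_pow, h5]
  rfl

theorem mc_of (hp : Odd p) {H : Subgroup (V ≃ₗ[ZMod p] V)}
    (hO : ∀ N : Subgroup H, N.Normal → IsPGroup p N → N = ⊥) : MC H where
  two h := by
    have := (Nat.prime_dvd_prime_iff_eq Fact.out Nat.prime_two).1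
      ((ZMod.natCast_eq_zero_iff 2 p).1 h)
    exact absurd (this ▸ hp) (by decide)
  smul v φ c h := by
    obtain ⟨n, rfl⟩ := ZMod.natCast_zmod_surjective c
    induction n with
    | zero => simpa using Tv.zero_left φ
    | succ n ih => simpa [add_smul] using ih.addL h
  opp v φ h v0 h0 := by
    have : Finite (V ≃ₗ[ZMod p] V) := Finite.of_injective _ DFunLike.coe_injective
    by_contra! hc
    obtain ⟨h1, t, ht, e⟩ := id h
    have key : ∀ {v w : V} {φ ψ : Dual (ZMod p) V}, φ v = 0 → ψ w = 0 → φ w = 0 →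
        ∀ {s t : H}, (∀ x, s.1 x = x + φ x • v) → (∀ x, t.1 x = x + ψ x • w) →
        IsPGroup p (Subgroup.closure ({s, t} : Set H)) := fun {v w φ ψ} a1 a2 a3 s t a4 a5 g => by
      have b1 : v ∈ Submodule.span (ZMod p) {v, w} := Submodule.subset_span (by simp)
      have b2 : w ∈ Submodule.span (ZMod p) {v, w} := Submodule.subset_span (by simp)
      have : Subgroup.closure ({s, t} : Set H) ≤
          (flagG (Submodule.span _ {v, w}) (ZMod p ∙ w)).comap H.subtype := by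
        rw [Subgroup.closure_le]
        rintro _ (rfl | rfl) -
        · refine ⟨fun x => by simpa [a4] using Submodule.smul_mem _ _ b1, fun x hx => ?_,
            fun x hx => ?_⟩
          · obtain ⟨a, b, rfl⟩ := Submodule.mem_span_pair.1 hx
            simp [a4, a1, a3]
          · obtain ⟨a, rfl⟩ := Submodule.mem_span_singleton.1 hx
            simp [a4, a3]
        · refine ⟨fun x => by simpa [a5] using Submodule.smul_mem _ _ b2, fun x _ => by
            simpa [a5] using Submodule.smul_mem _ _ (Submodule.mem_span_singleton_self w),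
            fun x hx => ?_⟩
          obtain ⟨a, rfl⟩ := Submodule.mem_span_singleton.1 hx
          simp [a5, a2]
      have h6 := pow_eq_one_of_flag hp ((Submodule.span_singleton_le_iff_mem _ _).2 b2) (this g.2)
      exact ⟨1, Subtype.ext (Subtype.ext (by simpa using h6))⟩
    have h2 := hO _ inferInstance (CF.Invol.baer_suzuki_elem (p := p) (x := (⟨t, ht⟩ : H)) fun g ↦ by
      have h3 := h.conj g.2 (ψ := φ ∘ₗ (g.1⁻¹ : V ≃ₗ[ZMod p] V).toLinearMap)
        fun x => by simp [inv_apply_apply]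
      have h4 : ∀ x, (g * ⟨t, ht⟩ * g⁻¹).1 x =
          x + (φ ∘ₗ (g.1⁻¹ : V ≃ₗ[ZMod p] V).toLinearMap) x • g.1 v := fun x => by
        simp [e, apply_inv_apply]
      by_cases h5 : φ (g.1 v) = 0
      · exact key h1 h3.1 h5 e h4
      · rw [Set.pair_comm]
        exact key h3.1 h1 (hc _ _ h3 h5) h4 e)
    have h3 : (⟨t, ht⟩ : H) = 1 := Subgroup.mem_bot.1 (h2 ▸ Subgroup.subset_normalClosure rfl)
    obtain ⟨x, hx⟩ := DFunLike.ne_iff.1 h0
    have := e x
    rw [show t = 1 from congrArg Subtype.val h3] at this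
    simp [v0] at this
    exact hx this

end prime

end CF.Geom.McL
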