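import Cfsg.Agent.Geom.Sm6

/-! `E₈(3)` has no subgroups `L₂(243)`, `L₂(729)`. -/

set_option autoImplicit false

namespace CF.Geom.Sm

open CF.Chev CF.BN CF.ExA Cfsg.Lie Matrix Finset
open scoped MatrixGroups

theorem ES_three {m : ℕ} {G : ℤ → ℤ} {w : Equiv.Perm (Fin 240)} (hw : w ∈ cE8.W) {y : Fin 8 → ℤ}
    (h : Mz cE8 m w *ᵥ red m y = (3 : ℤ) • red m y) (k : ℤ) (j : ℕ) :
    ES cE8 m G ((3 ^ j * k) • y) = ES cE8 m G (k • y) := by
  induction j with
  | zero => simp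
  | succ j ih =>
    rw [← ih, ← ES_Mw hw ((3 ^ j * k) • y)]
    refine ES_congr ?_
    rw [← Mz_red, red_smul, red_smul, mulVec_smul, h, smul_smul]; congr 1; ring

theorem eig121 (a b : ℤ) : Mz cE8 121 (cE8.wp w121) *ᵥ red 121 (a • vv e121 + b • vv f121) =
    (3 : ℤ) • red 121 (a • vv e121 + b • vv f121) := by
  have h1 := of_chkW (show chkW 121 w121 e121 fun i => 3 * e121 i by decide +kernel)
  have h2 := of_chkW (show chkW 121 w121 f121 fun i => 3 * f121 i by decide +kernel)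
  rw [red_add, red_smul, red_smul, mulVec_add, mulVec_smul, mulVec_smul, Mz_red, Mz_red, h1, h2,
    smul_add, smul_comm (3 : ℤ), smul_comm (3 : ℤ), ← red_smul 3, ← red_smul 3]; rfl

theorem red_comb {m : ℕ} {a b c d : ℤ} (h1 : (a : ZMod m) = c) (h2 : (b : ZMod m) = d)
    (u v : Fin 8 → ℤ) : red m (a • u + b • v) = red m (c • u + d • v) := by
  funext i; simp [red, h1, h2]

theorem main121 {a b : ZMod 121} (h : 11 * a ≠ 0 ∨ 11 * b ≠ 0) : ∃ T ∈ T121,
    ES cE8 121 (gf T 1024) ((a.val : ℤ) • vv e121 + (b.val : ℤ) • vv f121) < 0 := by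
  have h1 : ∀ a : ZMod 121, 11 * a ≠ 0 → a * a ^ 109 = 1 ∧ ∃ j < 5, ∃ s ∈ [(1 : ℤ), -1],
      ∃ k ∈ k121, 3 ^ j * s * a = k := by decide +kernel
  have h2 : ∀ a : ZMod 121, 11 * a = 0 → a.val % 11 = 0 := by decide +kernel
  have h3 := cE121
  simp only [forceP_eq, List.all_eq_true, allLt_iff, Bool.and_eq_true, Bool.or_eq_true,
    bne_iff_ne] at h3
  have key : ∀ (j : ℕ) (s : ℤ) (c d : ℕ), s ∈ [(1 : ℤ), -1] → 3 ^ j * s * a = c → 3 ^ j * s * b = d →
      neg 121 1024 T121 (PP 121 e121 f121) c d → ∃ T ∈ T121,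
        ES cE8 121 (gf T 1024) ((a.val : ℤ) • vv e121 + (b.val : ℤ) • vv f121) < 0 := by
    intro j s c d hs hc hd h
    obtain ⟨T, hT, h⟩ := of_neg h (rep_PP (by decide) _ _)
    refine ⟨T, hT, lt_of_eq_of_lt ?_ h⟩
    have := ES_three (G := gf T 1024) (cE8.wp_mem_W w121) (eig121 a.val b.val) s j
    rw [smul_add, smul_smul, smul_smul, ES_congr (red_comb (c := c) (d := d)
      (by simpa using hc) (by simpa using hd) _ _)] at this
    rw [this]
    rcases List.mem_pair.1 hs with rfl | rfl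
    · rw [one_smul]
    · rw [neg_one_smul, ES_neg]
  by_cases ha : 11 * a = 0
  · obtain ⟨e, j, -, s, hs, k, hk, e'⟩ := h1 b (h.resolve_left (not_not.2 ha))
    refine key j s (k * (a * b ^ 109).val) k hs ?_ e' (((h3 k hk _ (ZMod.val_lt _)).2).resolve_left
      (not_not.2 (h2 _ (by rw [← mul_assoc, ha, zero_mul]))))
    rw [Nat.cast_mul, ZMod.natCast_zmod_val, ← e']
    linear_combination (-(3 ^ j * s * a)) * e
  · obtain ⟨e, j, -, s, hs, k, hk, e'⟩ := h1 a ha
    refine key j s k (k * (b * a ^ 109).val) hs e' ?_ (h3 k hk _ (ZMod.val_lt _)).1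
    rw [Nat.cast_mul, ZMod.natCast_zmod_val, ← e']
    linear_combination (-(3 ^ j * s * b)) * e

theorem red_crt {a b : Fin 8 → ℤ} (h1 : red 73 a = red 73 b) (h2 : red 5 a = red 5 b) :
    red 365 a = red 365 b := funext fun i => (ZMod.intCast_eq_intCast_iff _ _ 365).2
  ((Int.modEq_and_modEq_iff_modEq_mul (m := 73) (n := 5) (by decide)).1
    ⟨(ZMod.intCast_eq_intCast_iff _ _ 73).1 (congrFun h1 i),
      (ZMod.intCast_eq_intCast_iff _ _ 5).1 (congrFun h2 i)⟩)

theorem red_dvd {m n : ℕ} (h : m ∣ n) {a b : Fin 8 → ℤ} (h1 : red n a = red n b) :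
    red m a = red m b := funext fun i => (ZMod.intCast_eq_intCast_iff _ _ m).2
  (((ZMod.intCast_eq_intCast_iff _ _ n).1 (congrFun h1 i)).of_dvd (Int.natCast_dvd_natCast.2 h))

/-- The hypotheses on an element of order `365`. -/
def Good (y : Fin 8 → ℤ) : Prop := red 5 y ≠ 0 ∧ ∃ w ∈ cE8.W,
  Mz cE8 73 w *ᵥ red 73 y = (3 : ℤ) • red 73 y ∧ Mz cE8 5 w *ᵥ red 5 y = (3 : ℤ) • red 5 y

/-- The conclusion. -/
def Neg (y : Fin 8 → ℤ) : Prop := ∃ T ∈ T365, ES cE8 365 (gf T 1024) y < 0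

theorem Mz_crt {w : Equiv.Perm (Fin 240)} {y : Fin 8 → ℤ}
    (h1 : Mz cE8 73 w *ᵥ red 73 y = (3 : ℤ) • red 73 y)
    (h2 : Mz cE8 5 w *ᵥ red 5 y = (3 : ℤ) • red 5 y) :
    Mz cE8 365 w *ᵥ red 365 y = (3 : ℤ) • red 365 y := by
  rw [Mz_red, ← red_smul] at *
  exact red_crt h1 h2

theorem Good.conj {y : Fin 8 → ℤ} (h : Good y) {v : Equiv.Perm (Fin 240)} (hv : v ∈ cE8.W)
    (H : Good (Mw cE8 v *ᵥ y) → Neg (Mw cE8 v *ᵥ y)) : Neg y := by
  obtain ⟨h0, w, hw, h1, h2⟩ := h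
  have key : ∀ m, Mz cE8 m w *ᵥ red m y = (3 : ℤ) • red m y → Mz cE8 m (v * w * v⁻¹) *ᵥ
      red m (Mw cE8 v *ᵥ y) = (3 : ℤ) • red m (Mw cE8 v *ᵥ y) := fun m h => by
    rw [← Mz_red, Mz_mul (mul_mem hv hw) (inv_mem hv), Mz_mul hv hw, ← mulVec_mulVec, Mz_inv hv,
      ← mulVec_mulVec, h, mulVec_smul]
  obtain ⟨T, hT, h3⟩ := H ⟨fun e => h0 (by rw [← Mz_inv hv (red 5 y), Mz_red, e, mulVec_zero]),
    _, mul_mem (mul_mem hv hw) (inv_mem hv), key _ h1, key _ h2⟩
  exact ⟨T, hT, by rwa [ES_Mw hv] at h3⟩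

theorem Good.three {y : Fin 8 → ℤ} (h : Good y) (j : ℕ)
    (H : Good ((3 ^ j : ℤ) • y) → Neg ((3 ^ j : ℤ) • y)) : Neg y := by
  obtain ⟨h0, w, hw, h1, h2⟩ := h
  obtain ⟨T, hT, h3⟩ := H ⟨fun e => h0 (funext fun i => by
    have := congrFun e i
    simp only [red, Pi.smul_apply, smul_eq_mul, Pi.zero_apply] at this ⊢
    push_cast at this
    exact (mul_eq_zero.1 this).resolve_left (pow_ne_zero _ (by decide))), w, hw,
    by rw [red_smul, mulVec_smul, h1, smul_comm], by rw [red_smul, mulVec_smul, h2, smul_comm]⟩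
  have := ES_three (G := gf T 1024) hw (Mz_crt h1 h2) 1 j
  rw [mul_one, one_smul] at this
  exact ⟨T, hT, this ▸ h3⟩

instance fact73 : Fact (Nat.Prime 73) := ⟨by norm_num⟩

theorem k73_ne : ∀ n ∈ k73, (n : ZMod 73) ≠ 0 := by decide

theorem cancel73 {w : Equiv.Perm (Fin 240)} {y x : Fin 8 → ℤ} {k : ℤ} (hk : (k : ZMod 73) ≠ 0)
    (e : red 73 y = k • red 73 x) (h : Mz cE8 73 w *ᵥ red 73 y = (3 : ℤ) • red 73 y) :
    Mz cE8 73 w *ᵥ red 73 x = (3 : ℤ) • red 73 x := by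
  rw [e, mulVec_smul, smul_comm, ← Int.cast_smul_eq_zsmul (ZMod 73) k,
    ← Int.cast_smul_eq_zsmul (ZMod 73) k] at h
  exact smul_right_injective _ hk h

theorem core {x : ℕ → ℤ} {i j k l : ℕ} (hc : chkT x i j k l) {y : Fin 8 → ℤ} (h : Good y)
    {n : ℕ} (hn : n ∈ k73) (e : red 73 y = (n : ℤ) • red 73 (vv x)) {a b c d : ℕ} (ha : a < 5)
    (hb : b < 5) (hc' : c < 5) (hd : d < 5)
    (e5 : red 5 y = red 5 (vv fun r => a * ej i r + b * ej j r + c * ej k r + d * ej l r)) :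
    Neg y := by
  obtain ⟨h0, w, hw, h1, h2⟩ := h
  simp only [chkT, force5_eq, allLt_iff, mk5_eq, Bool.or_eq_true, beq_iff_eq, bne_iff_ne,
    List.all_eq_true, List.map_map] at hc
  set t := vv fun r => a * ej i r + b * ej j r + c * ej k r + d * ej l r with ht
  set X := vv fun i => 220 * x i with hX
  have hR : Rep 365 _ X t := ⟨(fun x : ℕ × ℕ × ℕ × ℕ × ℕ =>
    (x.1, a * x.2.1 + b * x.2.2.1 + c * x.2.2.2.1 + d * x.2.2.2.2)) ∘ fun r =>
      (xv 365 (fun i => 220 * x i) r, xv 365 (ej i) r, xv 365 (ej j) r, xv 365 (ej k) r,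
        xv 365 (ej l) r), rfl, fun r => ⟨xv_cast (by decide) _ r, by
      simp only [Function.comp_apply]
      push_cast
      simp only [xv_cast (show 0 < 365 by decide), pr_vec, ht, vv]
      push_cast
      simp only [add_mul, sum_add_distrib, mul_sum, mul_assoc]⟩⟩
  have h3 : red 73 X = red 73 (vv x) := funext fun i => by
    simp only [red, hX, vv]; push_cast; rw [show (220 : ZMod 73) = 1 from rfl, one_mul]
  have h4 : red 5 X = 0 := funext fun i => by
    simp only [red, hX, vv]; push_cast; rw [show (220 : ZMod 5) = 0 from rfl, zero_mul]; rfl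
  have h5 : red 73 t = 0 := funext fun r => by
    have : ∀ j, (ej j r : ZMod 73) = 0 := fun j => by
      rw [ej, cnd_eq]; split_ifs <;> rfl
    simp [red, ht, vv, this]
  rcases hc a ha b hb c hc' d hd with h6 | h6 | h6
  · obtain ⟨rfl, rfl, rfl, rfl⟩ : a = 0 ∧ b = 0 ∧ c = 0 ∧ d = 0 := by omega
    exact absurd (e5.trans (funext fun i => by simp [red, ht, vv])) h0
  · have h7 := k73_ne n hn
    have h8 := ES_three (G := gf H365 0) hw (y := X + t) (Mz_crt
      (by rw [red_add, h5, add_zero, h3]; exact cancel73 (by simpa using h7) e h1)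
      (by rw [red_add, h4, zero_add, ← e5, h2])) 1 1
    have h9 := hR.ES H365 0 1 1
    have h10 := hR.ES H365 0 3 3
    simp only [Nat.cast_one, one_smul, Nat.cast_ofNat, ← smul_add] at h9 h10
    rw [pow_one, mul_one, one_smul, h9, h10] at h8
    exact absurd (by omega) h6
  · obtain ⟨T, hT, h7⟩ := of_neg (h6 n hn) hR
    refine ⟨T, hT, lt_of_eq_of_lt (ES_congr (red_crt ?_ ?_)) h7⟩
    · rw [red_add, red_smul, red_smul, h5, h3, e]; simp
    · rw [red_add, red_smul, red_smul, h4, e5]; simp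

theorem core' {x : ℕ → ℤ} (H : ∀ y, Good y → ∀ n ∈ k73, red 73 y = (n : ℤ) • red 73 (vv x) → Neg y)
    {y : Fin 8 → ℤ} (h : Good y) {n : ℤ} (hn : (n : ZMod 73) ≠ 0)
    (e : red 73 y = n • red 73 (vv x)) : Neg y := by
  obtain ⟨j, -, k, hk, e'⟩ := (by decide +kernel :
    ∀ a : ZMod 73, a ≠ 0 → ∃ j < 12, ∃ k ∈ k73, 3 ^ j * a = k) n hn
  refine h.three j fun h => H _ h k hk ?_
  rw [red_smul, e, smul_smul, ← Int.cast_smul_eq_zsmul (ZMod 73), ← Int.cast_smul_eq_zsmul (ZMod 73)]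
  congr 1
  simpa using e'

theorem val5 (a : ℤ) : (((a : ZMod 5).val : ℕ) : ZMod 5) * 146 = a := by
  rw [ZMod.natCast_zmod_val, show (146 : ZMod 5) = 1 from rfl, mul_one]

section
variable {K : Type*} [Field K] {z : Kˣ} (hz : orderOf z = 73)
include hz

theorem coreA (y : Fin 8 → ℤ) (h : Good y) (n : ℕ) (hn : n ∈ k73)
    (e : red 73 y = (n : ℤ) • red 73 (vv xA)) : Neg y := by
  obtain ⟨w, hw, h1, h2⟩ := h.2
  have := supp5 hz (J := fun i => i == 3 || i == 4 || i == 6 || i == 7) (by decide +kernel)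
    (w1 := wA) (by rw [Mz_red, of_chkW (show chkW 73 wA xA fun i => 3 * xA i by decide +kernel),
      ← red_smul]; rfl) (M := MA) (N := NA) (by decide +kernel) (by decide +kernel)
    (by decide +kernel) hw (cancel73 (by simpa using k73_ne n hn) e h1) h2
  refine core cTA h hn e (ZMod.val_lt (y 3 : ZMod 5)) (ZMod.val_lt (y 4 : ZMod 5))
    (ZMod.val_lt (y 6 : ZMod 5)) (ZMod.val_lt (y 7 : ZMod 5)) (funext fun i => ?_)
  have h3 := this i
  fin_cases i <;> simp [red, vv, ej, val5, -ZMod.natCast_val] at h3 ⊢ <;> exact h3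

theorem coreD (y : Fin 8 → ℤ) (h : Good y) (n : ℕ) (hn : n ∈ k73)
    (e : red 73 y = (n : ℤ) • red 73 (vv xD)) : Neg y := by
  obtain ⟨w, hw, h1, h2⟩ := h.2
  have := supp5 hz (J := fun i => i == 1 || i == 2 || i == 3 || i == 4) (by decide +kernel)
    (w1 := wD) (by rw [Mz_red, of_chkW (show chkW 73 wD xD fun i => 3 * xD i by decide +kernel),
      ← red_smul]; rfl) (M := MD) (N := ND) (by decide +kernel) (by decide +kernel)
    (by decide +kernel) hw (cancel73 (by simpa using k73_ne n hn) e h1) h2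
  refine core cTD h hn e (ZMod.val_lt (y 1 : ZMod 5)) (ZMod.val_lt (y 2 : ZMod 5))
    (ZMod.val_lt (y 3 : ZMod 5)) (ZMod.val_lt (y 4 : ZMod 5)) (funext fun i => ?_)
  have h3 := this i
  fin_cases i <;> simp [red, vv, ej, val5, -ZMod.natCast_val] at h3 ⊢ <;> exact h3

omit hz in
theorem eig73 (a b : ℤ) : Mz cE8 73 (cE8.wp w73) *ᵥ red 73 (a • vv e73 + b • vv f73) =
    (3 : ℤ) • red 73 (a • vv e73 + b • vv f73) := by
  have h1 := of_chkW (show chkW 73 w73 e73 fun i => 3 * e73 i by decide +kernel)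
  have h2 := of_chkW (show chkW 73 w73 f73 fun i => 3 * f73 i by decide +kernel)
  rw [red_add, red_smul, red_smul, mulVec_add, mulVec_smul, mulVec_smul, Mz_red, Mz_red, h1, h2,
    smul_add, smul_comm (3 : ℤ), smul_comm (3 : ℤ), ← red_smul 3, ← red_smul 3]; rfl

theorem line73 {y : Fin 8 → ℤ} (h : Good y) {t : ℕ} (ht : t < 74) {n : ℤ} (hn : (n : ZMod 73) ≠ 0)
    (e : red 73 y = n • red 73 (vv (ln t))) : Neg y := by
  have key : ∀ x l, (∀ y, Good y → ∀ n ∈ k73, red 73 y = (n : ℤ) • red 73 (vv x) → Neg y) →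
      chkL t x l → Neg y := fun x l H h1 => by
    simp only [chkL, List.any_eq_true, Bool.and_eq_true, bne_iff_ne] at h1
    obtain ⟨s, -, ⟨-, h1⟩, h2⟩ := h1
    refine h.conj (cE8.wp_mem_W s.2.2) fun h => core' H h (n := n * s.2.1) ?_ ?_
    · rw [Int.cast_mul]
      exact mul_ne_zero hn fun h => h1 (Int.emod_eq_zero_of_dvd
        ((ZMod.intCast_zmod_eq_zero_iff_dvd _ 73).1 h))
    · rw [← Mz_red, e, mulVec_smul, Mz_red, of_chkW h2, mul_smul, ← red_smul s.2.1]; rfl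
  have h1 := allLt_iff.1 cL73 t ht
  simp only [Bool.or_eq_true] at h1
  rcases h1 with (h1 | h1) | h1
  · obtain ⟨h0, w, hw, h2, h3⟩ := h
    refine absurd (funext fun i => supp5 hz h1 (w1 := w73) ?_ (M := M0) (N := N0)
      (by decide +kernel) (by decide +kernel) (by decide +kernel) hw (cancel73 hn e h2) h3 i
      (by simp)) h0
    by_cases h4 : t = 73
    · convert eig73 0 1 using 3 <;> (funext i; simp [vv, ln, h4])
    · convert eig73 1 t using 3 <;> (funext i; simp [vv, ln, h4])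
  · exact key _ _ (coreA hz) h1
  · exact key _ _ (coreD hz) h1

theorem main365 {y : Fin 8 → ℤ} (h : Good y) (h0 : red 73 y ≠ 0) {a b : ℕ}
    (e : red 73 y = red 73 ((a : ℤ) • vv e73 + (b : ℤ) • vv f73)) : Neg y := by
  by_cases ha : (a : ZMod 73) = 0
  · refine line73 hz h (t := 73) (by decide) (n := b) (fun hb => h0 ?_) ?_
    · rw [e]; funext i; simp [red, ha, show (b : ZMod 73) = 0 by simpa using hb]
    · rw [e]; funext i; simp [red, ha, vv, ln]
  · have h1 := ZMod.val_lt ((b : ZMod 73) / (a : ZMod 73))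
    refine line73 hz h (t := ((b : ZMod 73) / (a : ZMod 73)).val) (by omega) (n := a) (by simpa using ha) ?_
    rw [e]; funext i
    simp only [red, vv, ln, cnd_eq, beq_iff_eq, h1.ne, if_false, Pi.add_apply, Pi.smul_apply,
      smul_eq_mul]
    rw [zsmul_eq_mul]
    push_cast [ZMod.natCast_zmod_val]
    field_simp

end

theorem exists_LS8 : Nonempty (LS.{0} cE8 1 3 3 1 (chevE8.group (ZMod 3))) :=
  exists_LS_chev goodE8 (fun K _ => torE8 K) cenE8 (ZMod 3) 3

theorem card8 : Nat.card (chevE8.group (ZMod 3)) = 3 ^ 120 * (3 ^ 2 - 1) * (3 ^ 8 - 1) * (3 ^ 12 - 1) *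
    (3 ^ 14 - 1) * (3 ^ 18 - 1) * (3 ^ 20 - 1) * (3 ^ 24 - 1) * (3 ^ 30 - 1) :=
  cardE8 (ZMod 3) (Nat.card_zmod 3)

theorem fin8 : Finite (chevE8.group (ZMod 3)) := Nat.finite_of_card_ne_zero (by rw [card8]; norm_num)

theorem fac8 {ℓ k : ℕ} (hℓ : ℓ.Prime) (h1 : ℓ ^ k ∣ Nat.card (chevE8.group (ZMod 3)))
    (h2 : ¬ ℓ ^ (k + 1) ∣ Nat.card (chevE8.group (ZMod 3))) :
    (Nat.card (chevE8.group (ZMod 3))).factorization ℓ = k := by
  have := fin8
  have h0 := (Nat.card_pos (α := chevE8.group (ZMod 3))).ne'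
  rw [hℓ.pow_dvd_iff_le_factorization h0] at h1 h2
  omega

theorem no243 {F : Type*} [Field F] [Fintype F] (hF : Fintype.card F = 243)
    (H : Subgroup (chevE8.group (ZMod 3))) (φ : H ≃* PSL(2, F)) : False := by
  obtain ⟨L⟩ := exists_LS8
  have := fin8
  have : CharP F 3 := charP_of_card_eq_prime_pow (f := 5) hF
  obtain ⟨μ, hμ, g, y, h1, -, h3, h4⟩ := setup L (by decide) φ (m := 121) (by decide)
    (.inl (by rw [hF]; decide))
  obtain ⟨v, hv, a, b, ha, hb, h5⟩ := syl L (ℓ := 11) (k := 2) (by decide)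
    (fac8 (by decide) (by rw [card8]; decide +kernel) (by rw [card8]; decide +kernel)) hμ
    (cE8.wp_mem_W w121) (e := vv e121) (f := vv f121) (by simpa using eig121 1 0)
    (by simpa using eig121 0 1) (i := 0) (j := 1) (by decide) h1
  obtain ⟨T, hT, h6⟩ := main121 (a := a) (b := b) (by
    by_contra h
    push Not at h
    have h6 : (11 : ℤ) • red 121 y = 0 := by
      rw [← Mz_inv hv (red 121 y), h5, ← mulVec_smul]
      refine Eq.trans (congrArg _ (funext fun i => ?_)) (mulVec_zero _)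
      simp only [red, Pi.smul_apply, Pi.add_apply, smul_eq_mul, Pi.zero_apply]
      rw [zsmul_eq_mul]
      push_cast
      linear_combination h.1 * (vv e121 i) + h.2 * (vv f121 i)
    refine absurd (h3 11 ?_) (by decide)
    rw [zp_pow', show (1 : Fin 8 → L.Kˣ) = fun i => μ ^ (0 : Fin 8 → ℤ) i from funext (by simp),
      zp_iff hμ, red_smul]
    exact h6.trans (funext fun i => by simp [red]))
  rw [ZMod.val_cast_of_lt ha, ZMod.val_cast_of_lt hb, ← ES_congr ((Mz_red v y).symm.trans h5),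
    ES_Mw hv] at h6
  exact h6.not_ge (h4 _ fun d hd he => of_chkS cS121 (by decide) hT (by omega) (by omega) he)

theorem no729 {F : Type*} [Field F] [Fintype F] (hF : Fintype.card F = 729)
    (H : Subgroup (chevE8.group (ZMod 3))) (φ : H ≃* PSL(2, F)) : False := by
  obtain ⟨L⟩ := exists_LS8
  have := fin8
  have : CharP F 3 := charP_of_card_eq_prime_pow (f := 6) hF
  obtain ⟨μ, hμ, g, y, h1, ⟨w, hw, h2⟩, h3, h4⟩ := setup L (by decide) φ (m := 365) (by decide)
    (.inr (by rw [hF]; decide))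
  have hz : orderOf (μ ^ 5) = 73 := by rw [orderOf_pow' _ (by decide), hμ]; rfl
  have hz' : orderOf (μ ^ 73) = 5 := by rw [orderOf_pow' _ (by decide), hμ]; rfl
  obtain ⟨v, hv, a, b, -, -, h5⟩ := syl L (ℓ := 73) (k := 1) (by decide)
    (fac8 (by norm_num) (by rw [card8]; decide +kernel) (by rw [card8]; decide +kernel)) hz
    (cE8.wp_mem_W w73) (e := vv e73) (f := vv f73) (by simpa using eig73 1 0)
    (by simpa using eig73 0 1) (i := 0) (j := 1) (by decide) (g := g) (y := y) (by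
      rw [← zp_pow, map_pow, ← conj_pow, map_pow, h1])
  have h6 : ∀ {k m : ℕ}, orderOf (μ ^ k) = m → ¬ 365 ∣ 2 * k → red m y ≠ 0 := fun hk h e => h (h3 _ (by
    rw [zp_pow, show (1 : Fin 8 → L.Kˣ) = fun i => (μ ^ _) ^ (0 : Fin 8 → ℤ) i from funext (by simp),
      zp_iff hk]
    exact e.trans (funext fun i => by simp [red])))
  rw [mp_zpow, zp_pow', zp_iff hμ] at h2
  have h7 : Good y := ⟨h6 hz' (by decide), w, hw, by
    rw [Mz_red, ← red_smul]; exact red_dvd (by decide) h2, by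
    rw [Mz_red, ← red_smul]; exact red_dvd (by decide) h2⟩
  obtain ⟨T, hT, h8⟩ := h7.conj hv fun h => main365 hz h (fun e => h6 hz (by decide) (by
    rw [← Mz_inv hv (red 73 y), Mz_red, e, mulVec_zero])) ((Mz_red v y).symm.trans h5)
  exact h8.not_ge (h4 _ fun d hd he => of_chkS cS365 (by decide) hT (by omega) (by omega) he)

end CF.Geom.Sm
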