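import Mathlib
import Cfsg.Agent.Geom.Polar
import Cfsg.Agent.Geom.Orders

/-!
# Sylow `2`-subgroups of `O⁺(2m, 2)` meet nontrivially
-/

set_option autoImplicit false

namespace CF.Geom.SylO

open Module Subgroup QuadraticMap

/-- `H` is a maximal `2`-subgroup of `K` -/
def Mx {G : Type*} [Group G] (K H : Subgroup G) : Prop :=
  H ≤ K ∧ IsPGroup 2 H ∧ ∀ L, H ≤ L → L ≤ K → IsPGroup 2 L → L ≤ H

variable {F V : Type*} [Field F] [Fintype F] [AddCommGroup V] [Module F V] [FiniteDimensional F V]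
  {Q : QuadraticForm F V} (hF : Fintype.card F = 2) (hQ : (polarBilin Q).Nondegenerate) {Z : Submodule F V}
  {H : Subgroup (V ≃ₗ[F] V)} {v w : V}
include hF hQ

theorem rad (v0 : v ≠ 0) (hv : Q v = 0) : IsPGroup 2 (Rad (polarBilin Q) Q v (perp (polarBilin Q) Z)) ∧
    Rad (polarBilin Q) Q v (perp (polarBilin Q) Z) ≤ fixSub (OG Q) Z ∧
      ∀ L ≤ fixSub (OG Q) Z, (∀ g ∈ L, g v = v) →
        L ≤ normalizer (Rad (polarBilin Q) Q v (perp (polarBilin Q) Z) : Set (V ≃ₗ[F] V)) := by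
  have W := isWittPair_quad Q hQ
  have := Module.finite_of_finite F (M := V)
  have : Finite (V ≃ₗ[F] V) := Finite.of_injective _ DFunLike.coe_injective
  refine ⟨fun ⟨g, hg⟩ => ⟨1, Subtype.ext ?_⟩, fun g hg => ⟨hg.1, fun z hz => W.Rad_fix hg (W.le_perp_perp Z hz)⟩,
    fun L hL h g hg => mem_normalizer_fintype fun r hr => ?_⟩
  · obtain ⟨w, a, -, rfl⟩ := exists_eq_eichler hQ v0 hv hg
    have : w + w = 0 := by
      rw [← two_smul F, show (2 : F) = 0 by simpa [hF] using FiniteField.cast_card_eq_zero F, zero_smul]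
    refine LinearEquiv.ext fun x => (eichlerMap_add hv a a x).trans ?_
    rw [this, eichlerMap_zero]; rfl
  · have := conj_mem_Rad (hL hg).1 hr
    rwa [h g hg, map_perp (hL hg).1.1, (mem_subStab_iff_le.2 fun z hz => by rwa [(hL hg).2 z hz] : Z.map _ = Z)] at this

theorem Mx.rad (h : Mx (fixSub (OG Q) Z) H) (v0 : v ≠ 0) (hv : Q v = 0) (fx : ∀ g ∈ H, g v = v) :
    Rad (polarBilin Q) Q v (perp (polarBilin Q) Z) ≤ H := by
  obtain ⟨a, b, c⟩ := SylO.rad hF hQ (Z := Z) v0 hv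
  exact le_sup_right.trans (h.2.2 _ le_sup_left (sup_le h.1 b) (h.2.1.to_sup_of_normal_right' a (c H h.1 fx)))

theorem Mx.down (h : Mx (fixSub (OG Q) Z) H) (hv : Q v = 0) (hw : Q w = 0) (vw : polar Q v w = 1)
    (wZ : w ∈ perp (polarBilin Q) Z) (vZ : v ∈ perp (polarBilin Q) Z) (fx : ∀ g ∈ H, g v = v) :
    Mx (fixSub (OG Q) (Z ⊔ Submodule.span F {v, w})) (H ⊓ fixSub (OG Q) (Z ⊔ Submodule.span F {v, w})) := by
  have v0 : v ≠ 0 := by rintro rfl; simp at vw
  obtain ⟨a, b, c⟩ := SylO.rad hF hQ (Z := Z) v0 hv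
  have m : ∀ {g}, g ∈ fixSub (OG Q) (Z ⊔ Submodule.span F {v, w}) ↔ (g ∈ fixSub (OG Q) Z ∧ g v = v) ∧ g w = w := by
    simp [← sup_span_pair, mem_fixSub_sup_singleton]
  refine ⟨inf_le_right, h.2.1.to_inf_left, fun L l1 l2 l3 => le_inf (le_sup_left.trans (h.2.2 _ (fun g hg => ?_)
    (sup_le (fun g hg => (m.1 (l2 hg)).1.1) b) (l3.to_sup_of_normal_right' a
      (c L (fun g hg => (m.1 (l2 hg)).1.1) fun g hg => (m.1 (l2 hg)).1.2)))) l2⟩
  have p := (h.1 hg).1.1
  obtain ⟨r, r1, r2⟩ := (isWittPair_quad Q hQ).exists_Rad (hv.trans (map_zero Q).symm) vZ (y := w) (y' := g w)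
    (by simp [vw]) (by nth_rewrite 1 [← fx g hg]; exact p v w) ((h.1 hg).1.2 w) (sub_mem (mem_perp.2 fun z hz => by
      rw [← (h.1 hg).2 z hz, p, mem_perp.1 wZ z hz]) wZ)
  have k := mul_mem (inv_mem (h.rad hF hQ v0 hv fx r1)) hg
  simpa using mul_mem (mem_sup_right r1) (mem_sup_left (l1 ⟨k, m.2 ⟨⟨h.1 k, fx _ k⟩, by simp [← r2]⟩⟩))

theorem main (k : ℕ) : ∀ (Z : Submodule F V) (H H' : Subgroup (V ≃ₗ[F] V)), Disjoint Z (perp (polarBilin Q) Z) →
    finrank F (perp (polarBilin Q) Z) = 2 * k + 2 → cnt (polarBilin Q) Q Z 0 = 2 * 4 ^ k + 2 ^ k →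
    Mx (fixSub (OG Q) Z) H → Mx (fixSub (OG Q) Z) H' → H ⊓ H' ≠ ⊥ := by
  have W := isWittPair_quad Q hQ
  have := Module.finite_of_finite F (M := V)
  have : Finite (V ≃ₗ[F] V) := Finite.of_injective _ DFunLike.coe_injective
  have hF' : Nat.card F = 2 := Nat.card_eq_fintype_card.trans hF
  have F2 : ∀ c : F, c = 0 ∨ c = 1 := fun c => by
    have := FiniteField.pow_card c
    rw [hF] at this
    exact (mul_eq_zero.1 (show c * (c - 1) = 0 by linear_combination this)).imp_right sub_eq_zero.1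
  have : Fact (Nat.Prime 2) := ⟨Nat.prime_two⟩
  induction k with
  | zero =>
    intro Z H H' d1 d2 d3 h h'
    have c := (card_ne_zero_add_one (B := polarBilin Q) (Q := Q) Z).trans d3
    obtain ⟨e, e1, e2, e3⟩ := (Nat.card_ne_zero.1 (ne_of_eq_of_ne (Nat.add_right_cancel (m := 1) (k := 2) c) two_ne_zero)).1
    obtain ⟨f, f1, f2, f3⟩ := W.exists_partner (fun m => e2 (Submodule.disjoint_def.1 d1 e m e1)) e3 (mem_perp.1 e1)
    have a := W.card_fixSub_of_nondeg d1 e1 e2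
    have b := W.finrank_perp_hyp e3 f1 f2 e1 (mem_perp.2 f3)
    have t : Z ⊔ Submodule.span F {e, f} = ⊤ := W.perp_injective (by
      rw [W.perp_top]; exact Submodule.finrank_eq_zero.1 (by omega))
    rw [W.card_fixSub_partner (slideCard_quad Q) e3 f1 f2 e1 (mem_perp.2 f3), t, fixSub_top, W.perp_top, e3,
      Nat.add_right_cancel (m := 1) (k := 2) c] at a
    have p : IsPGroup 2 (fixSub (OG Q) Z) := .of_card (n := 1) (a.trans (by simp))
    refine fun m => ?_
    rw [eq_bot_iff.2 ((le_inf (h.2.2 _ h.1 le_rfl p) (h'.2.2 _ h'.1 le_rfl p)).trans m.le)] at a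
    simp at a
  | succ k ih =>
    intro Z H H' d1 d2 d3 h h'
    have fx : ∀ {H}, Mx (fixSub (OG Q) Z) H → ∃ v, (v ∈ perp (polarBilin Q) Z ∧ v ≠ 0 ∧ Q v = Q 0) ∧ ∀ g ∈ H, g v = v :=
      fun {H} h => by
        let S : SubMulAction H V := ⟨{v | v ∈ perp (polarBilin Q) Z ∧ v ≠ 0 ∧ Q v = Q 0}, fun g v hv =>
          ⟨mem_perp.2 fun z hz => by
            rw [← (h.1 g.2).2 z hz]; exact ((h.1 g.2).1.1 z v).trans (mem_perp.1 hv.1 z hz),
            g.1.map_ne_zero_iff.2 hv.2.1, ((h.1 g.2).1.2 v).trans hv.2.2⟩⟩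
        obtain ⟨v, hv⟩ := h.2.1.nonempty_fixed_point_of_prime_not_dvd_card S (by
          have c := (card_ne_zero_add_one (B := polarBilin Q) (Q := Q) Z).trans d3
          change ¬ 2 ∣ Nat.card {v // v ∈ perp (polarBilin Q) Z ∧ v ≠ 0 ∧ Q v = Q 0}
          rw [pow_succ 2] at c; omega)
        exact ⟨v, v.2, fun g hg => congrArg Subtype.val (hv ⟨g, hg⟩)⟩
    obtain ⟨v, ⟨v1, v2, v3⟩, v4⟩ := fx h
    obtain ⟨w, ⟨w1, w2, w3⟩, w4⟩ := fx h'
    have v5 := v3.trans (map_zero Q)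
    have w5 := w3.trans (map_zero Q)
    have ne : ∀ {u} (hu : polar Q v u = 0), u ∉ F ∙ v → (eichler v5 hu).1 ≠ 1 := fun {u} hu n m => by
      obtain ⟨y, -, hy⟩ := W.exists_hyperbolic v2 v3
      have := eichler_apply v5 hu y
      rw [m, show polar Q v y = 1 from hy] at this
      exact n (Submodule.mem_span_singleton.2 ⟨polar Q u y + Q u, by
        simp only [LinearEquiv.coe_one, id] at this; linear_combination (norm := module) this⟩)
    rcases F2 (polar Q v w) with e | e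
    · by_cases n : w ∈ F ∙ v
      · obtain rfl : v = w := by
          obtain ⟨c, rfl⟩ := Submodule.mem_span_singleton.1 n
          rcases F2 c with rfl | rfl <;> simp_all
        obtain ⟨u, u1, u2⟩ := SetLike.not_le_iff_exists.1 fun m : perp (polarBilin Q) (Z ⊔ F ∙ v) ≤ F ∙ v => by
          have a := Submodule.finrank_mono m
          have b := W.finrank_perp (Z ⊔ F ∙ v)
          have c := W.finrank_perp Z
          have d := Submodule.finrank_add_le_finrank_add_finrank Z (F ∙ v)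
          rw [finrank_span_singleton v2] at a d
          omega
        rw [perp_sup] at u1
        have r := eichler_mem_Rad v5 (mem_perp_singleton.1 u1.2) v1 u1.1
        exact fun m => ne _ u2 (m.le ⟨h.rad hF hQ v2 v5 v4 r, h'.rad hF hQ v2 v5 w4 r⟩)
      · refine fun m => ne e n (m.le ⟨h.rad hF hQ v2 v5 v4 (eichler_mem_Rad v5 e v1 w1), ?_⟩)
        have := h'.rad hF hQ w2 w5 w4 (eichler_mem_Rad w5 (w := -v) (by simp [polar_comm Q w, e]) w1 (neg_mem v1))
        refine (congrArg (· ∈ H') (LinearEquiv.ext fun x => ?_)).mp this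
        simp [eichler_apply, v5, w5]; abel
    have a := W.finrank_perp_hyp v3 w3 e v1 w1
    have b := W.cnt_hyp (slideCard_quad Q) v3 w3 e v1 w1 0
    have c := h'.down hF hQ w5 v5 (polar_comm Q w v ▸ e) v1 w1 w4
    rw [Set.pair_comm] at c
    refine fun m => ih _ _ _ (W.disjoint_sup_perp d1 (W.disjoint_hyperbolic (W.self_eq_zero v3) (W.self_eq_zero w3)
      (by simp [e])) (Submodule.span_le.2 (by simp [Set.insert_subset_iff, v1, w1]))) (by omega) ?_
      (h.down hF hQ v5 w5 e w1 v1 v4) c (eq_bot_iff.2 ((inf_le_inf inf_le_left inf_le_left).trans m.le))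
    rw [d3, hF', show finrank F (perp (polarBilin Q) (Z ⊔ Submodule.span F {v, w})) = 2 * (k + 1) by omega, pow_mul] at b
    norm_num [pow_succ] at b
    omega

end CF.Geom.SylO
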